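import Mathlib
import Cfsg.Agent.SmallSimple.SelfCentPrime
import Cfsg.Agent.H395.Jordan
import Cfsg.Agent.SignalizersComponents.CoprimeFix
import Cfsg.Prelude.Def_Solvable

/-!
# Exactly one class size divisible by `p`: first reductions (helper527)

* `Cov P g` : some conjugate of `g` centralises the subgroup `P`;
* `not_dvd_iff` : the class size of `g` is prime to `p` iff `Cov P g` (`P` a Sylow `p`-subgroup);
* `OneCl P x` : `¬ Cov P x` and all elements without `Cov P` are conjugate to `x`;
* `case_two` : if `N_G(P) ≠ C_G(P)` then `C_G(x)` is a Frobenius complement of order two;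
* `sup_eq_top`, `exists_complement`.
-/

set_option autoImplicit false
set_option linter.unusedSectionVars false

namespace Cfsg.Agent.H527.OC

open Subgroup
open scoped Pointwise

variable {G : Type*} [Group G]

/-- Some conjugate of `g` centralises `P`. -/
def Cov (P : Subgroup G) (g : G) : Prop := ∃ k : G, k * g * k⁻¹ ∈ centralizer (P : Set G)

theorem Cov.conj {P : Subgroup G} {g : G} (h : Cov P g) (a : G) : Cov P (a * g * a⁻¹) := by
  obtain ⟨k, hk⟩ := h
  refine ⟨k * a⁻¹, ?_⟩
  have : k * a⁻¹ * (a * g * a⁻¹) * (k * a⁻¹)⁻¹ = k * g * k⁻¹ := by group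
  rw [this]
  exact hk

theorem mem_cent {P : Subgroup G} {g : G} : g ∈ centralizer (P : Set G) ↔ ∀ y ∈ P, y * g = g * y :=
  Subgroup.mem_centralizer_iff

/-- `x` is the (unique up to conjugation) element which has no conjugate centralising `P`. -/
structure OneCl (P : Subgroup G) (x : G) : Prop where
  bad : ¬ Cov P x
  good : ∀ g : G, ¬ Cov P g → ∃ k : G, k * x * k⁻¹ = g

variable [Finite G] {p : ℕ} [Fact p.Prime]

/-- The class size of `g` is prime to `p` iff a conjugate of `g` centralises the Sylow `p`-subgroup `P`. -/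
theorem not_dvd_iff (P : Sylow p G) (g : G) :
    ¬ p ∣ Nat.card (ConjClasses.mk g).carrier ↔ Cov (P : Subgroup G) g := by
  have hp : p.Prime := Fact.out
  have h0 := SmallSimple.SelfCentPrime.card_carrier_mul_card_centralizer g
  have h1 : Nat.card (ConjClasses.mk g).carrier = (centralizer ({g} : Set G)).index := by
    have h2 := (centralizer ({g} : Set G)).index_mul_card
    rw [← h0] at h2
    exact (Nat.eq_of_mul_eq_mul_right Nat.card_pos h2).symm
  rw [h1]
  constructor
  · intro h2
    obtain ⟨S⟩ : Nonempty (Sylow p ↥(centralizer ({g} : Set G))) := inferInstance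
    have h3 : IsPGroup p ((S : Subgroup ↥(centralizer ({g} : Set G))).map (centralizer ({g} : Set G)).subtype) :=
      S.2.map _
    have h4 : ¬ p ∣ ((S : Subgroup ↥(centralizer ({g} : Set G))).map (centralizer ({g} : Set G)).subtype).index := by
      rw [Subgroup.index_map_subtype]
      intro h5
      rcases hp.dvd_mul.1 h5 with h6 | h6
      · exact S.not_dvd_index h6
      · exact h2 h6
    obtain ⟨k, hk⟩ := MulAction.exists_smul_eq G (h3.toSylow h4) P
    refine ⟨k, ?_⟩
    rw [mem_cent]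
    intro y hy
    rw [← hk] at hy
    have hy' : y ∈ MulAut.conj k • ((S : Subgroup ↥(centralizer ({g} : Set G))).map
        (centralizer ({g} : Set G)).subtype) := hy
    rw [Subgroup.mem_pointwise_smul_iff_inv_smul_mem] at hy'
    obtain ⟨z, _, hz⟩ := hy'
    have hz2 : (z : G) * g = g * (z : G) := (Subgroup.mem_centralizer_iff.1 z.2 g rfl).symm
    have hz3 : (z : G) = k⁻¹ * y * k := by
      rw [← Subgroup.subtype_apply, hz]
      simp [MulAut.smul_def]
    rw [hz3] at hz2
    calc y * (k * g * k⁻¹) = k * ((k⁻¹ * y * k) * g) * k⁻¹ := by group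
      _ = k * (g * (k⁻¹ * y * k)) * k⁻¹ := by rw [hz2]
      _ = k * g * k⁻¹ * y := by group
  · rintro ⟨k, hk⟩ h2
    have h3 : ((P : Subgroup G).map (MulAut.conj k⁻¹).toMonoidHom) ≤ centralizer ({g} : Set G) := by
      rintro _ ⟨y, hy, rfl⟩
      rw [Subgroup.mem_centralizer_singleton_iff]
      have := mem_cent.1 hk y hy
      show (k⁻¹ * y * k⁻¹⁻¹) * g = g * (k⁻¹ * y * k⁻¹⁻¹)
      calc (k⁻¹ * y * k⁻¹⁻¹) * g = k⁻¹ * (y * (k * g * k⁻¹)) * k := by group
        _ = k⁻¹ * ((k * g * k⁻¹) * y) * k := by rw [this]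
        _ = g * (k⁻¹ * y * k⁻¹⁻¹) := by group
    have h4 := Subgroup.index_dvd_of_le h3
    have h5 : ((P : Subgroup G).map (MulAut.conj k⁻¹).toMonoidHom).index = (P : Subgroup G).index :=
      Subgroup.index_map_equiv (P : Subgroup G) (MulAut.conj k⁻¹)
    rw [h5] at h4
    exact P.not_dvd_index (h2.trans h4)

/-- The hypothesis of S4164 in usable form. -/
theorem exists_oneCl (h : ∃! C : ConjClasses G, p ∣ Nat.card C.carrier) :
    ∃ x : G, p ∣ Nat.card (ConjClasses.mk x).carrier ∧ ∀ P : Sylow p G, OneCl (P : Subgroup G) x := by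
  obtain ⟨C, hC, hu⟩ := h
  obtain ⟨x, rfl⟩ := ConjClasses.exists_rep C
  refine ⟨x, hC, fun P => ⟨fun h1 => (not_dvd_iff P x).2 h1 hC, fun g hg => ?_⟩⟩
  have h1 : p ∣ Nat.card (ConjClasses.mk g).carrier := by
    by_contra h2
    exact hg ((not_dvd_iff P g).1 h2)
  have h2 := hu _ h1
  rw [ConjClasses.mk_eq_mk_iff_isConj, isConj_comm, isConj_iff] at h2
  exact h2


/-! ### The first reduction -/

theorem sup_eq_top {P : Subgroup G} {x : G} (h : OneCl P x) {N : Subgroup G} [N.Normal] (hx : x ∈ N) :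
    N ⊔ centralizer (P : Set G) = ⊤ := by
  by_contra hne
  obtain ⟨g, hg⟩ := H395.Jordan.exists_not_conj_mem hne
  by_cases hc : Cov P g
  · obtain ⟨k, hk⟩ := hc
    exact hg k⁻¹ (by simpa using (mem_sup_right hk : k * g * k⁻¹ ∈ N ⊔ centralizer (P : Set G)))
  · obtain ⟨k, rfl⟩ := h.good g hc
    refine hg k (mem_sup_left ?_)
    have : k⁻¹ * (k * x * k⁻¹) * k = x := by group
    rw [this]
    exact hx

theorem mem_cl_iff {P : Subgroup G} {x : G} (h : OneCl P x) (g : G) :
    g ∈ (ConjClasses.mk x).carrier ↔ ¬ Cov P g := by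
  rw [ConjClasses.mem_carrier_iff_mk_eq, ConjClasses.mk_eq_mk_iff_isConj, isConj_comm, isConj_iff]
  constructor
  · rintro ⟨k, rfl⟩ hc
    have := hc.conj k⁻¹
    rw [show k⁻¹ * (k * x * k⁻¹) * k⁻¹⁻¹ = x by group] at this
    exact h.bad this
  · exact h.good g

theorem ncard_cov_le (P : Subgroup G) :
    {g : G | Cov P g ∧ g ≠ 1}.ncard ≤
      (normalizer (P : Set G)).index * (Nat.card (centralizer (P : Set G)) - 1) := by
  classical
  have h0 : {g : G | Cov P g ∧ g ≠ 1} ⊆ (fun z : (G ⧸ normalizer (P : Set G)) × G => z.1.out * z.2 * z.1.out⁻¹) ''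
      ((Set.univ : Set (G ⧸ normalizer (P : Set G))) ×ˢ ((centralizer (P : Set G) : Set G) \ {1})) := by
    rintro g ⟨⟨k, hk⟩, hg1⟩
    obtain ⟨n, hn⟩ := QuotientGroup.mk_out_eq_mul (normalizer (P : Set G)) k⁻¹
    refine ⟨(((k⁻¹ : G) : G ⧸ normalizer (P : Set G)), (n : G)⁻¹ * (k * g * k⁻¹) * n), ⟨Set.mem_univ _, ?_, ?_⟩, ?_⟩
    · rw [SetLike.mem_coe, mem_cent]
      intro y hy
      have h1 := mem_cent.1 hk ((n : G) * y * (n : G)⁻¹) ((Subgroup.mem_normalizer_iff.1 n.2 y).1 hy)
      calc y * ((n : G)⁻¹ * (k * g * k⁻¹) * n) = (n : G)⁻¹ * (((n : G) * y * (n : G)⁻¹) * (k * g * k⁻¹)) * n := by group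
        _ = (n : G)⁻¹ * ((k * g * k⁻¹) * ((n : G) * y * (n : G)⁻¹)) * n := by rw [h1]
        _ = (n : G)⁻¹ * (k * g * k⁻¹) * n * y := by group
    · rw [Set.mem_singleton_iff]
      intro h1
      change (n : G)⁻¹ * (k * g * k⁻¹) * n = 1 at h1
      apply hg1
      calc g = k⁻¹ * (n * ((n : G)⁻¹ * (k * g * k⁻¹) * n) * (n : G)⁻¹) * k := by group
        _ = 1 := by rw [h1]; group
    · show (((k⁻¹ : G) : G ⧸ normalizer (P : Set G)).out) * ((n : G)⁻¹ * (k * g * k⁻¹) * n) *
        (((k⁻¹ : G) : G ⧸ normalizer (P : Set G)).out)⁻¹ = g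
      rw [hn]
      group
  refine (Set.ncard_le_ncard h0 (Set.toFinite _)).trans ((Set.ncard_image_le (Set.toFinite _)).trans ?_)
  rw [Set.ncard_prod, Set.ncard_univ, Set.ncard_sdiff_singleton_of_mem (one_mem (centralizer (P : Set G))),
    ← Nat.card_coe_set_eq, Subgroup.index]
  exact le_rfl

theorem nat_two {c n m K cl g : ℕ} (hc : 2 ≤ c) (hn : 2 ≤ n) (hm : 1 ≤ m) (hK : 1 ≤ K) (h1 : cl * c = g)
    (h2 : g = m * n * K) (h3 : g ≤ cl + 1 + m * (K - 1)) : c = 2 ∧ n = 2 ∧ m = 1 := by
  obtain ⟨c', rfl⟩ := Nat.exists_eq_add_of_le hc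
  obtain ⟨n', rfl⟩ := Nat.exists_eq_add_of_le hn
  obtain ⟨K', rfl⟩ := Nat.exists_eq_add_of_le hK
  obtain ⟨m', rfl⟩ := Nat.exists_eq_add_of_le hm
  have h4 : 1 + K' - 1 = K' := by omega
  rw [h4] at h3
  subst h2
  -- multiply by `c`
  have h5 : (1 + m') * (2 + n') * (1 + K') * (2 + c') ≤
      (1 + m') * (2 + n') * (1 + K') + (2 + c') + (1 + m') * K' * (2 + c') := by
    calc (1 + m') * (2 + n') * (1 + K') * (2 + c') ≤ (cl + 1 + (1 + m') * K') * (2 + c') :=
          Nat.mul_le_mul_right _ h3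
      _ = cl * (2 + c') + (2 + c') + (1 + m') * K' * (2 + c') := by ring
      _ = _ := by rw [h1]
  have h6 : (1 + m') * (1 + K') * (c' * n' + c' + n') + (2 + c') * m' ≤ 0 := by
    have e : (1 + m') * (2 + n') * (1 + K') * (2 + c') = ((1 + m') * (1 + K') * (c' * n' + c' + n') + (2 + c') * m') +
        ((1 + m') * (2 + n') * (1 + K') + (2 + c') + (1 + m') * K' * (2 + c')) := by ring
    omega
  have h7 : (2 + c') * m' = 0 := by omega
  have h8 : (1 + m') * (1 + K') * (c' * n' + c' + n') = 0 := by omega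
  have h9 : m' = 0 := by
    rcases Nat.mul_eq_zero.1 h7 with h | h <;> omega
  have h10 : c' * n' + c' + n' = 0 := by
    rcases Nat.mul_eq_zero.1 h8 with h | h
    · rcases Nat.mul_eq_zero.1 h with h | h <;> omega
    · exact h
  omega

theorem ne_one_of_bad {P : Subgroup G} {x : G} (h : OneCl P x) : x ≠ 1 := by
  rintro rfl
  exact h.bad ⟨1, by simp⟩

/-- **The case `N_G(P) ≠ C_G(P)`.** -/
theorem case_two (P : Sylow p G) {x : G} (hx : p ∣ Nat.card (ConjClasses.mk x).carrier)
    (h : OneCl (P : Subgroup G) x)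
    (hne : ¬ normalizer ((P : Subgroup G) : Set G) ≤ centralizer ((P : Subgroup G) : Set G)) :
    ∃ H : Subgroup G, Cfsg.IsFrobeniusComplement H ∧ Nat.card H = 2 ∧ p ∣ Nat.card (Cfsg.frobeniusKernel H) := by
  classical
  set C := centralizer ((P : Subgroup G) : Set G) with hC
  set N := normalizer ((P : Subgroup G) : Set G) with hN
  have hx1 := ne_one_of_bad h
  have hle : C ≤ N := Subgroup.centralizer_le_normalizer _
  have hcl := SmallSimple.SelfCentPrime.card_carrier_mul_card_centralizer x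
  -- the order of the centraliser is at least two
  have hc2 : 2 ≤ Nat.card (centralizer ({x} : Set G)) := by
    have h1 : Nat.card (centralizer ({x} : Set G)) ≠ 0 := Nat.card_pos.ne'
    have h2 : Nat.card (centralizer ({x} : Set G)) ≠ 1 := by
      intro h3
      have h4 := Subgroup.card_eq_one.1 h3
      have h5 : x ∈ centralizer ({x} : Set G) := Subgroup.mem_centralizer_singleton_iff.2 rfl
      rw [h4, Subgroup.mem_bot] at h5
      exact hx1 h5
    omega
  have hn2 : 2 ≤ C.relIndex N := by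
    have h1 : C.relIndex N ≠ 0 := Subgroup.index_ne_zero_of_finite
    have h2 : C.relIndex N ≠ 1 := fun h3 => hne (Subgroup.relIndex_eq_one.1 h3)
    omega
  have hcard : Nat.card G = N.index * C.relIndex N * Nat.card C := by
    rw [← C.card_mul_index, ← Subgroup.relIndex_mul_index hle]
    ring
  have hcount : Nat.card G ≤ Nat.card (ConjClasses.mk x).carrier + 1 + N.index * (Nat.card C - 1) := by
    have h1 : (Set.univ : Set G) ⊆ ((ConjClasses.mk x).carrier ∪ {1}) ∪ {g : G | Cov (P : Subgroup G) g ∧ g ≠ 1} := by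
      intro g _
      by_cases hg : Cov (P : Subgroup G) g
      · by_cases hg1 : g = 1
        · exact Or.inl (Or.inr hg1)
        · exact Or.inr ⟨hg, hg1⟩
      · exact Or.inl (Or.inl ((mem_cl_iff h g).2 hg))
    have h2 := Set.ncard_le_ncard h1 (Set.toFinite _)
    rw [Set.ncard_univ] at h2
    refine h2.trans ((Set.ncard_union_le _ _).trans (Nat.add_le_add ((Set.ncard_union_le _ _).trans ?_)
      (ncard_cov_le _)))
    rw [Set.ncard_singleton, Nat.card_coe_set_eq]
  obtain ⟨e1, e2, e3⟩ := nat_two hc2 hn2 (Nat.one_le_iff_ne_zero.2 Subgroup.index_ne_zero_of_finite) Nat.card_pos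
    hcl hcard hcount
  set H := centralizer ({x} : Set G) with hH
  have hxH : x ∈ H := Subgroup.mem_centralizer_singleton_iff.2 rfl
  have hH2 : ∀ y ∈ H, y = 1 ∨ y = x := by
    intro y hy
    by_contra hcon
    push Not at hcon
    have h1 : ({1, x, y} : Set G) ⊆ (H : Set G) := by
      rintro z (rfl | rfl | rfl)
      · exact one_mem _
      · exact hxH
      · exact hy
    have h2 := Set.ncard_le_ncard h1 (Set.toFinite _)
    rw [← Nat.card_coe_set_eq (H : Set G)] at h2
    rw [Set.ncard_insert_of_notMem (by simp [hx1.symm, hcon.1.symm]), Set.ncard_pair hcon.2.symm] at h2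
    have h3 : Nat.card ((H : Set G) : Type _) = 2 := e1
    omega
  have hFC : Cfsg.IsFrobeniusComplement H := by
    refine ⟨?_, ?_, ?_⟩
    · intro h1
      rw [h1, Subgroup.mem_bot] at hxH
      exact hx1 hxH
    · intro h1
      have h2 : Nat.card G = 2 := by rw [← Subgroup.card_top (G := G), ← h1, e1]
      rw [e1, h2] at hcl
      have h3 : Nat.card (ConjClasses.mk x).carrier = 1 := by omega
      rw [h3] at hx
      exact (Fact.out : p.Prime).one_lt.ne' (Nat.dvd_one.1 hx)
    · intro g hg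
      rw [eq_bot_iff]
      intro y hy
      obtain ⟨hy1, hy2⟩ := Subgroup.mem_inf.1 hy
      rw [Subgroup.mem_bot]
      by_contra hne1
      have hyx : y = x := (hH2 y hy1).resolve_left hne1
      subst hyx
      rw [Subgroup.mem_pointwise_smul_iff_inv_smul_mem] at hy2
      have h1 : (MulAut.conj g)⁻¹ • y = g⁻¹ * y * g := by simp [MulAut.smul_def]
      rw [h1] at hy2
      rcases hH2 _ hy2 with h2 | h2
      · apply hne1
        calc y = g * (g⁻¹ * y * g) * g⁻¹ := by group
          _ = 1 := by rw [h2]; group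
      · apply hg
        rw [hH, Subgroup.mem_centralizer_singleton_iff]
        calc g * y = g * (g⁻¹ * y * g) := by rw [h2]
          _ = y * g := by group
  refine ⟨H, hFC, e1, ?_⟩
  have hker : Cfsg.frobeniusKernel H = ((ConjClasses.mk x).carrier)ᶜ := by
    ext g
    rw [Set.mem_compl_iff, ConjClasses.mem_carrier_iff_mk_eq, ConjClasses.mk_eq_mk_iff_isConj, isConj_comm, isConj_iff]
    constructor
    · rintro (h1 | h1)
      · rintro ⟨k, hk⟩
        rw [h1, mul_inv_eq_one] at hk
        exact hx1 (by simpa using hk)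
      · rintro ⟨k, hk⟩
        apply h1 k
        rw [Subgroup.mem_pointwise_smul_iff_inv_smul_mem]
        have h2 : (MulAut.conj k)⁻¹ • g = x := by
          rw [← hk]; simp [MulAut.smul_def, mul_assoc]
        rw [h2]
        exact hxH
    · intro h1
      by_cases hg : g = 1
      · exact Or.inl hg
      · right
        intro k hk
        rw [Subgroup.mem_pointwise_smul_iff_inv_smul_mem] at hk
        have h2 : (MulAut.conj k)⁻¹ • g = k⁻¹ * g * k := by simp [MulAut.smul_def]
        rw [h2] at hk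
        rcases hH2 _ hk with h3 | h3
        · apply hg
          calc g = k * (k⁻¹ * g * k) * k⁻¹ := by group
            _ = 1 := by rw [h3]; group
        · apply h1
          exact ⟨k, by rw [← h3]; group⟩
  have hcl2 : Nat.card (ConjClasses.mk x).carrier * 2 = Nat.card G := by rw [← e1]; exact hcl
  have h1 : Nat.card (Cfsg.frobeniusKernel H) = Nat.card (ConjClasses.mk x).carrier := by
    rw [hker, Nat.card_coe_set_eq, Nat.card_coe_set_eq]
    have h2 := Set.ncard_add_ncard_compl (ConjClasses.mk x).carrier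
    rw [← Nat.card_coe_set_eq (ConjClasses.mk x).carrier] at h2 ⊢
    omega
  rw [h1]
  exact hx

end Cfsg.Agent.H527.OC
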