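import Mathlib
import Cfsg.Agent.H527.OneClassA
import Cfsg.Agent.PLocal.CoprimeLift

/-!
# The set up for S4164 (helper527)

`Setup p q P N L` : `L < N` are normal subgroups of `G`, `N` a `p'`-group, `P` a `p`-group, `N ∖ L` is a conjugacy class
of `G`, `G = N C_G(P)`, all elements outside `N ∖ L` have an `N`-conjugate in `C_G(P)`, `C_N(P) ≤ L`, `N / L` is
elementary abelian of exponent `q`.

* `Setup.mem_of_comm_mod` : an element of `C_G(P) ∖ N` acts fixed point freely on `N / L`;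
* `Setup.mem_cent_of_comm` : if `h ∈ C_G(P) ∖ N` then `C_N(h) ≤ C_N(P)`;
* `Setup.index_add_one` : `|G : N| + 1 = |N : L|`;
* `Setup.card_centralizer` : `|C_G(g)| = |N : L|` for `g ∈ N ∖ L`;
* `Setup.quot` : `G / A` for `A ≤ L`;
* `Setup.frob` : if `L = 1` then `C_G(P)` is a Frobenius complement.
-/

set_option autoImplicit false
set_option linter.unusedSectionVars false

namespace Cfsg.Agent.H527.OC

open Subgroup
open scoped Pointwise

variable {G : Type*} [Group G]

structure Setup (p q : ℕ) (P N L : Subgroup G) : Prop where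
  primeq : q.Prime
  normN : N.Normal
  normL : L.Normal
  lt : L < N
  pP : IsPGroup p P
  pN : ¬ p ∣ Nat.card N
  sup : ∀ g : G, ∃ n ∈ N, ∃ c ∈ centralizer (P : Set G), n * c = g
  cov : ∀ g : G, ¬ (g ∈ N ∧ g ∉ L) → ∃ n ∈ N, n * g * n⁻¹ ∈ centralizer (P : Set G)
  cent : ∀ g ∈ N, g ∈ centralizer (P : Set G) → g ∈ L
  conj : ∀ g ∈ N, g ∉ L → ∀ h ∈ N, h ∉ L → ∃ k : G, k * g * k⁻¹ = h
  abel : ∀ a ∈ N, ∀ b ∈ N, a * b * a⁻¹ * b⁻¹ ∈ L
  exp : ∀ a ∈ N, a ^ q ∈ L

variable {p q : ℕ} {P N L : Subgroup G}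

theorem mem_map_mk {A K : Subgroup G} [A.Normal] (h : A ≤ K) (g : G) :
    (QuotientGroup.mk' A g) ∈ K.map (QuotientGroup.mk' A) ↔ g ∈ K := by
  rw [← Subgroup.mem_comap, Subgroup.comap_map_eq, QuotientGroup.ker_mk', sup_eq_left.2 h]

namespace Setup

theorem exists_mem (S : Setup p q P N L) : ∃ x ∈ N, x ∉ L := by
  obtain ⟨x, hx, hx'⟩ := SetLike.exists_of_lt S.lt
  exact ⟨x, hx, hx'⟩

variable [Finite G]

/-- the map `m ↦ h⁻¹ m⁻¹ h m` from `N` to `N / L`. -/
theorem mem_of_comm_mod (S : Setup p q P N L) {h : G} (hh : h ∈ centralizer (P : Set G)) (hN : h ∉ N) {m : G}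
    (hm : m ∈ N) (hc : h⁻¹ * m⁻¹ * h * m ∈ L) : m ∈ L := by
  have := S.normN
  have := S.normL
  set π := QuotientGroup.mk' L with hπ
  have hab : ∀ a ∈ N, ∀ b ∈ N, π a * π b = π b * π a := by
    intro a ha b hb
    rw [← map_mul, ← map_mul, hπ, QuotientGroup.mk'_apply, QuotientGroup.mk'_apply, QuotientGroup.eq]
    have h1 := S.abel b⁻¹ (inv_mem hb) a⁻¹ (inv_mem ha)
    have h2 : (a * b)⁻¹ * (b * a) = b⁻¹ * a⁻¹ * b⁻¹⁻¹ * a⁻¹⁻¹ := by group
    rw [h2]
    exact h1
  let φ : N →* G ⧸ L :=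
    { toFun := fun m => π (h⁻¹ * (m : G)⁻¹ * h * m)
      map_one' := by simp
      map_mul' := by
        intro a b
        have ha := hab (h⁻¹ * (a : G)⁻¹ * h * a) (mul_mem (by
            have := S.normN.conj_mem _ (inv_mem a.2) h⁻¹
            simpa using this) a.2) b b.2
        have hb := hab (h⁻¹ * (b : G)⁻¹ * h) (by
            have := S.normN.conj_mem _ (inv_mem b.2) h⁻¹
            simpa using this) (h⁻¹ * (a : G)⁻¹ * h * a) (mul_mem (by
            have := S.normN.conj_mem _ (inv_mem a.2) h⁻¹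
            simpa using this) a.2)
        show π (h⁻¹ * ((a * b : N) : G)⁻¹ * h * ((a * b : N) : G)) = _
        rw [Subgroup.coe_mul, show h⁻¹ * ((a : G) * b)⁻¹ * h * ((a : G) * b) =
          (h⁻¹ * (b : G)⁻¹ * h) * (h⁻¹ * (a : G)⁻¹ * h * a) * b by group, map_mul, map_mul, hb, mul_assoc, ← map_mul] }
  -- the range is `N / L`
  have hrange : φ.range = N.map π := by
    apply le_antisymm
    · rintro _ ⟨m, rfl⟩
      refine ⟨h⁻¹ * (m : G)⁻¹ * h * m, ?_, rfl⟩
      refine mul_mem ?_ m.2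
      have := S.normN.conj_mem _ (inv_mem m.2) h⁻¹
      simpa using this
    · rintro _ ⟨n, hn, rfl⟩
      have h1 : ¬ (h * n ∈ N ∧ h * n ∉ L) := by
        rintro ⟨h2, -⟩
        exact hN ((Subgroup.mul_mem_cancel_right _ hn).1 h2)
      obtain ⟨k, hk, hkc⟩ := S.cov _ h1
      have hlN : h⁻¹ * (k * (h * n) * k⁻¹) ∈ N := by
        have h2 : h⁻¹ * (k * (h * n) * k⁻¹) = (h⁻¹ * k * h⁻¹⁻¹) * n * k⁻¹ := by group
        rw [h2]
        exact mul_mem (mul_mem (S.normN.conj_mem _ hk _) hn) (inv_mem hk)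
      have hl : h⁻¹ * (k * (h * n) * k⁻¹) ∈ L := S.cent _ hlN (mul_mem (inv_mem hh) hkc)
      refine ⟨⟨k, hk⟩, ?_⟩
      show π (h⁻¹ * k⁻¹ * h * k) = π n
      rw [hπ, QuotientGroup.mk'_apply, QuotientGroup.mk'_apply, QuotientGroup.eq]
      have h3 := S.normL.conj_mem _ hl k⁻¹
      have h4 : (h⁻¹ * k⁻¹ * h * k)⁻¹ * n = k⁻¹ * (h⁻¹ * (k * (h * n) * k⁻¹)) * k⁻¹⁻¹ := by group
      rw [h4]
      exact h3
  -- the kernel
  have hker : L.subgroupOf N ≤ φ.ker := by
    intro m hm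
    rw [Subgroup.mem_subgroupOf] at hm
    rw [MonoidHom.mem_ker]
    show π (h⁻¹ * (m : G)⁻¹ * h * m) = 1
    rw [hπ, QuotientGroup.mk'_apply, QuotientGroup.eq_one_iff]
    refine mul_mem ?_ hm
    have := S.normL.conj_mem _ (inv_mem hm) h⁻¹
    simpa using this
  have hcard : Nat.card φ.ker ≤ Nat.card (L.subgroupOf N) := by
    have h1 : Nat.card φ.range = Nat.card (N.map π) := by rw [hrange]
    have h2 := Subgroup.card_mul_index φ.ker
    rw [Subgroup.index_ker, h1] at h2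
    have h3 := Subgroup.card_mul_index ((π.domRestrict N).ker)
    rw [Subgroup.index_ker] at h3
    have h4 : (π.domRestrict N).range = N.map π := by
      ext z
      simp [Subgroup.mem_map]
    rw [h4] at h3
    have h5 : (π.domRestrict N).ker = L.subgroupOf N := by
      ext z
      rw [MonoidHom.mem_ker, MonoidHom.domRestrict_apply, hπ, QuotientGroup.mk'_apply, QuotientGroup.eq_one_iff,
        Subgroup.mem_subgroupOf]
    rw [h5] at h3
    rw [← h3] at h2
    exact (Nat.eq_of_mul_eq_mul_right Nat.card_pos h2).le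
  have heq := Subgroup.eq_of_le_of_card_ge hker hcard
  have hmk : (⟨m, hm⟩ : N) ∈ φ.ker := by
    rw [MonoidHom.mem_ker]
    show π (h⁻¹ * m⁻¹ * h * m) = 1
    rw [hπ, QuotientGroup.mk'_apply, QuotientGroup.eq_one_iff]
    exact hc
  rw [← heq, Subgroup.mem_subgroupOf] at hmk
  exact hmk

/-- Elements centralising `P` modulo `A`. -/
theorem exists_lift (S : Setup p q P N L) [Fact p.Prime] {A : Subgroup G} (hA : A.Normal) (hAN : A ≤ N) {m : G}
    (hc : ∀ y ∈ P, y * m * y⁻¹ * m⁻¹ ∈ A) : ∃ a ∈ A, a * m ∈ centralizer (P : Set G) := by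
  have hcop : (Nat.card A).Coprime p := by
    rw [Nat.coprime_comm, Nat.Prime.coprime_iff_not_dvd Fact.out]
    exact fun h => S.pN (h.trans (Subgroup.card_dvd_of_le hAN))
  obtain ⟨a, ha, h⟩ := PLocal.CoprimeLift.exists_commuting_lift A P hcop S.pP m hc
  exact ⟨a, ha, mem_cent.2 h⟩

theorem mem_of_forall (S : Setup p q P N L) [Fact p.Prime] {m : G} (hm : m ∈ N)
    (hc : ∀ y ∈ P, y * m * y⁻¹ * m⁻¹ ∈ L) : m ∈ L := by
  obtain ⟨a, ha, h⟩ := S.exists_lift S.normL S.lt.le hc
  have h1 := S.cent _ (mul_mem (S.lt.le ha) hm) h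
  exact (Subgroup.mul_mem_cancel_left _ ha).1 h1

/-- If `h ∈ C_G(P) ∖ N` then `C_N(h) ≤ C_N(P)`. -/
theorem mem_cent_of_comm (S : Setup p q P N L) {h : G} (hh : h ∈ centralizer (P : Set G)) (hN : h ∉ N) {m : G}
    (hm : m ∈ N) (hc : h * m = m * h) : m ∈ centralizer (P : Set G) := by
  classical
  have := S.normN
  set D : Subgroup N := (centralizer (P : Set G)).subgroupOf N with hD
  -- the surjective map
  let f : (N ⧸ D) × D → G := fun z => ((z.1.out : N) : G) * (h * ((z.2 : N) : G)) * ((z.1.out : N) : G)⁻¹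
  have hfmem : ∀ z, h⁻¹ * f z ∈ N := by
    intro z
    have h1 : h⁻¹ * f z = (h⁻¹ * ((z.1.out : N) : G) * h⁻¹⁻¹) * (((z.2 : N) : G) * ((z.1.out : N) : G)⁻¹) := by
      show h⁻¹ * (((z.1.out : N) : G) * (h * ((z.2 : N) : G)) * ((z.1.out : N) : G)⁻¹) = _
      group
    rw [h1]
    exact mul_mem (S.normN.conj_mem _ z.1.out.2 _) (mul_mem z.2.1.2 (inv_mem z.1.out.2))
  let F : (N ⧸ D) × D → N := fun z => ⟨h⁻¹ * f z, hfmem z⟩
  -- conjugates by the elements of `D`
  have hout : ∀ (k : N) (d : G), d ∈ N → d ∈ centralizer (P : Set G) →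
      ∃ d' : D, f ((k : N ⧸ D), d') = (k : G) * (h * d) * (k : G)⁻¹ := by
    intro k d hd hdc
    obtain ⟨e, he⟩ := QuotientGroup.mk_out_eq_mul D k
    have hec : (e : N).1 ∈ centralizer (P : Set G) := Subgroup.mem_subgroupOf.1 e.2
    have hd' : h⁻¹ * ((e : N) : G)⁻¹ * h * d * ((e : N) : G) ∈ N := by
      have := S.normN.conj_mem _ (inv_mem (e : N).2) h⁻¹
      rw [inv_inv] at this
      exact mul_mem (mul_mem this hd) (e : N).2
    refine ⟨⟨⟨h⁻¹ * ((e : N) : G)⁻¹ * h * d * ((e : N) : G), hd'⟩, ?_⟩, ?_⟩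
    · refine Subgroup.mem_subgroupOf.2 ?_
      exact mul_mem (mul_mem (mul_mem (mul_mem (inv_mem hh) (inv_mem hec)) hh) hdc) hec
    · show (((k : N ⧸ D).out : N) : G) * (h * (h⁻¹ * ((e : N) : G)⁻¹ * h * d * ((e : N) : G))) *
        (((k : N ⧸ D).out : N) : G)⁻¹ = _
      rw [he, Subgroup.coe_mul]
      group
  have hsurj : Function.Surjective F := by
    intro n
    have h1 : ¬ (h * n ∈ N ∧ h * n ∉ L) := by
      rintro ⟨h2, -⟩
      exact hN ((Subgroup.mul_mem_cancel_right _ n.2).1 h2)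
    obtain ⟨k, hk, hkc⟩ := S.cov _ h1
    have hlN : h⁻¹ * (k * (h * n) * k⁻¹) ∈ N := by
      have h2 : h⁻¹ * (k * (h * n) * k⁻¹) = (h⁻¹ * k * h⁻¹⁻¹) * n * k⁻¹ := by group
      rw [h2]
      exact mul_mem (mul_mem (S.normN.conj_mem _ hk _) n.2) (inv_mem hk)
    obtain ⟨d', hd'⟩ := hout ⟨k⁻¹, inv_mem hk⟩ _ hlN (mul_mem (inv_mem hh) hkc)
    refine ⟨(((⟨k⁻¹, inv_mem hk⟩ : N) : N ⧸ D), d'), Subtype.ext ?_⟩
    show h⁻¹ * f (((⟨k⁻¹, inv_mem hk⟩ : N) : N ⧸ D), d') = n
    rw [hd']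
    show h⁻¹ * (k⁻¹ * (h * (h⁻¹ * (k * (h * n) * k⁻¹))) * k⁻¹⁻¹) = n
    group
  have hcard : Nat.card ((N ⧸ D) × D) = Nat.card N := by
    rw [Nat.card_prod, ← Subgroup.card_mul_index D, Subgroup.index, mul_comm]
  have hinj : Function.Injective F := by
    have h1 := (Nat.bijective_iff_surjective_and_card F).2 ⟨hsurj, hcard⟩
    exact h1.1
  obtain ⟨d1, hd1⟩ := hout 1 1 (one_mem _) (one_mem _)
  obtain ⟨d2, hd2⟩ := hout ⟨m, hm⟩ 1 (one_mem _) (one_mem _)
  have h1 : F (((1 : N) : N ⧸ D), d1) = F (((⟨m, hm⟩ : N) : N ⧸ D), d2) := by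
    apply Subtype.ext
    show h⁻¹ * f _ = h⁻¹ * f _
    rw [hd1, hd2]
    show h⁻¹ * ((1 : G) * (h * 1) * (1 : G)⁻¹) = h⁻¹ * (m * (h * 1) * m⁻¹)
    rw [mul_one h, ← hc]
    group
  have h2 := congrArg Prod.fst (hinj h1)
  change ((1 : N) : N ⧸ D) = ((⟨m, hm⟩ : N) : N ⧸ D) at h2
  rw [QuotientGroup.eq, inv_one, one_mul] at h2
  exact Subgroup.mem_subgroupOf.1 h2

/-- `|G : N| + 1 = |N : L|`. -/
theorem index_add_one (S : Setup p q P N L) : N.index + 1 = L.relIndex N := by
  classical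
  have := S.normN
  have := S.normL
  obtain ⟨x, hx, hxL⟩ := S.exists_mem
  set π := QuotientGroup.mk' L with hπ
  have hcl : (ConjClasses.mk (π x)).carrier = (N.map π : Set (G ⧸ L)) \ {1} := by
    ext z
    rw [ConjClasses.mem_carrier_iff_mk_eq, ConjClasses.mk_eq_mk_iff_isConj, isConj_comm, isConj_iff]
    constructor
    · rintro ⟨c, rfl⟩
      obtain ⟨k, rfl⟩ := QuotientGroup.mk'_surjective L c
      refine ⟨⟨k * x * k⁻¹, S.normN.conj_mem _ hx _, by simp [hπ]⟩, ?_⟩
      rw [Set.mem_singleton_iff, ← map_inv, ← map_mul, ← map_mul, QuotientGroup.mk'_apply, QuotientGroup.eq_one_iff]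
      intro h1
      have h2 := S.normL.conj_mem _ h1 k⁻¹
      rw [show k⁻¹ * (k * x * k⁻¹) * k⁻¹⁻¹ = x by group] at h2
      exact hxL h2
    · rintro ⟨⟨n, hn, rfl⟩, h1⟩
      rw [Set.mem_singleton_iff, hπ, QuotientGroup.mk'_apply, QuotientGroup.eq_one_iff] at h1
      obtain ⟨k, hk⟩ := S.conj x hx hxL n hn h1
      exact ⟨π k, by rw [← hk]; simp⟩
  have hcent : centralizer ({π x} : Set (G ⧸ L)) = N.map π := by
    apply le_antisymm
    · intro z hz
      obtain ⟨g, rfl⟩ := QuotientGroup.mk'_surjective L z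
      rw [Subgroup.mem_centralizer_singleton_iff] at hz
      obtain ⟨n, hn, c, hc, rfl⟩ := S.sup g
      by_cases hcN : c ∈ N
      · exact ⟨n * c, mul_mem hn hcN, rfl⟩
      · exfalso
        apply hxL
        apply S.mem_of_comm_mod hc hcN hx
        rw [← QuotientGroup.eq_one_iff, ← QuotientGroup.mk'_apply]
        -- `n` commutes with `x` modulo `L`
        have h1 : π n * π x = π x * π n := by
          rw [← map_mul, ← map_mul, hπ, QuotientGroup.mk'_apply, QuotientGroup.mk'_apply, QuotientGroup.eq]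
          have h1 := S.abel x⁻¹ (inv_mem hx) n⁻¹ (inv_mem hn)
          have h2 : (n * x)⁻¹ * (x * n) = x⁻¹ * n⁻¹ * x⁻¹⁻¹ * n⁻¹⁻¹ := by group
          rw [h2]
          exact h1
        rw [map_mul] at hz
        have h3 : π c * π x = π x * π c := by
          have h4 : π n * (π c * π x) = π n * (π x * π c) := by
            rw [← mul_assoc, hz, ← mul_assoc, ← mul_assoc, h1]
          exact mul_left_cancel h4
        show π (c⁻¹ * x⁻¹ * c * x) = 1
        rw [map_mul, map_mul, map_mul, map_inv, map_inv, mul_assoc, h3]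
        group
    · rintro _ ⟨n, hn, rfl⟩
      rw [Subgroup.mem_centralizer_singleton_iff, ← map_mul, ← map_mul, hπ, QuotientGroup.mk'_apply,
        QuotientGroup.mk'_apply, QuotientGroup.eq]
      have h1 := S.abel x⁻¹ (inv_mem hx) n⁻¹ (inv_mem hn)
      have h2 : (n * x)⁻¹ * (x * n) = x⁻¹ * n⁻¹ * x⁻¹⁻¹ * n⁻¹⁻¹ := by group
      rw [h2]
      exact h1
  have h1 := SmallSimple.SelfCentPrime.card_carrier_mul_card_centralizer (π x)
  rw [hcl, hcent] at h1
  have hNcard : Nat.card (N.map π) = L.relIndex N := by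
    have h2 : L.relIndex N = Nat.card (N.map π) := by
      have := Subgroup.relIndex_ker N π
      rw [QuotientGroup.ker_mk'] at this
      exact this
    exact h2.symm
  have h2 : Nat.card (((N.map π : Set (G ⧸ L)) \ {1} : Set (G ⧸ L)) : Type _) = Nat.card (N.map π) - 1 := by
    rw [Nat.card_coe_set_eq, Set.ncard_sdiff_singleton_of_mem (one_mem (N.map π)), ← Nat.card_coe_set_eq]
    rfl
  rw [h2, hNcard] at h1
  have h3 : Nat.card (G ⧸ L) = L.relIndex N * N.index := by
    rw [← Subgroup.index, Subgroup.relIndex_mul_index S.lt.le]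
  rw [h3, mul_comm] at h1
  have h4 := Nat.eq_of_mul_eq_mul_left (Nat.pos_of_ne_zero (by rw [← hNcard]; exact Nat.card_pos.ne')) h1
  have h5 : L.relIndex N ≠ 0 := by rw [← hNcard]; exact Nat.card_pos.ne'
  omega

/-- `|N : L| ≥ 2`. -/
theorem two_le (S : Setup p q P N L) : 2 ≤ L.relIndex N := by
  have h1 : L.relIndex N ≠ 0 := Subgroup.index_ne_zero_of_finite
  have h2 : L.relIndex N ≠ 1 := by
    intro h
    rw [Subgroup.relIndex_eq_one] at h
    exact absurd S.lt (not_lt_of_ge h)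
  omega

/-- `|C_G(g)| = |N : L|` for `g ∈ N ∖ L`. -/
theorem card_centralizer (S : Setup p q P N L) {g : G} (hg : g ∈ N) (hgL : g ∉ L) :
    Nat.card (centralizer ({g} : Set G)) = L.relIndex N := by
  classical
  have hcl : (ConjClasses.mk g).carrier = (N : Set G) \ (L : Set G) := by
    ext z
    rw [ConjClasses.mem_carrier_iff_mk_eq, ConjClasses.mk_eq_mk_iff_isConj, isConj_comm, isConj_iff]
    constructor
    · rintro ⟨k, rfl⟩
      refine ⟨S.normN.conj_mem _ hg _, fun h1 => hgL ?_⟩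
      have h2 := S.normL.conj_mem _ h1 k⁻¹
      rwa [show k⁻¹ * (k * g * k⁻¹) * k⁻¹⁻¹ = g by group] at h2
    · rintro ⟨h1, h2⟩
      exact S.conj g hg hgL z h1 h2
  have h1 := SmallSimple.SelfCentPrime.card_carrier_mul_card_centralizer g
  rw [hcl, Nat.card_coe_set_eq, Set.ncard_sdiff (s := (L : Set G)) (t := (N : Set G)) S.lt.le (Set.toFinite _)] at h1
  have e1 : (N : Set G).ncard = Nat.card N := (Nat.card_coe_set_eq _).symm
  have e2 : (L : Set G).ncard = Nat.card L := (Nat.card_coe_set_eq _).symm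
  have e3 : Nat.card N = Nat.card L * L.relIndex N := by
    have := Subgroup.relIndex_mul_relIndex (⊥ : Subgroup G) L N bot_le S.lt.le
    rw [Subgroup.relIndex_bot_left, Subgroup.relIndex_bot_left] at this
    exact this.symm
  have e4 : Nat.card G = Nat.card N * N.index := (Subgroup.card_mul_index N).symm
  have e5 := S.index_add_one
  have e6 := S.two_le
  rw [e1, e2, e4, e3] at h1
  obtain ⟨k, hk⟩ := Nat.exists_eq_add_of_le e6
  have e7 : N.index = 1 + k := by omega
  rw [e7, hk] at h1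
  rw [hk]
  have e8 : Nat.card L * (2 + k) - Nat.card L = Nat.card L * (1 + k) := by
    rw [show 2 + k = (1 + k) + 1 by ring, Nat.mul_succ, Nat.add_sub_cancel]
  rw [e8] at h1
  have h2 : Nat.card L * (1 + k) * Nat.card (centralizer ({g} : Set G)) = Nat.card L * (1 + k) * (2 + k) := by
    rw [h1]; ring
  exact Nat.eq_of_mul_eq_mul_left (Nat.mul_pos Nat.card_pos (by omega)) h2

/-- `|N : L|` is a power of `q`. -/
theorem exists_pow (S : Setup p q P N L) : ∃ n : ℕ, L.relIndex N = q ^ n := by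
  have := S.normN
  have := S.normL
  have : Fact q.Prime := ⟨S.primeq⟩
  have h1 : IsPGroup q (N.map (QuotientGroup.mk' L)) := by
    rintro ⟨_, n, hn, rfl⟩
    refine ⟨1, Subtype.ext ?_⟩
    show (QuotientGroup.mk' L n) ^ (q ^ 1) = 1
    rw [pow_one, ← map_pow, QuotientGroup.mk'_apply, QuotientGroup.eq_one_iff]
    exact S.exp n hn
  obtain ⟨n, hn⟩ := IsPGroup.iff_card.1 h1
  refine ⟨n, ?_⟩
  rw [← hn]
  have := Subgroup.relIndex_ker N (QuotientGroup.mk' L)
  rw [QuotientGroup.ker_mk'] at this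
  exact this

/-- Elements of order prime to `q` commuting with an element of `N ∖ L` are trivial. -/
theorem eq_one_of_comm (S : Setup p q P N L) {g : G} (hg : g ∈ N) (hgL : g ∉ L) {a : G} (hag : a * g = g * a)
    {s : ℕ} (hs : s.Coprime q) (ha : a ^ s = 1) : a = 1 := by
  obtain ⟨n, hn⟩ := S.exists_pow
  have h1 := S.card_centralizer hg hgL
  rw [hn] at h1
  have h2 : orderOf a ∣ q ^ n := by
    rw [← h1]
    have h3 : a ∈ centralizer ({g} : Set G) := Subgroup.mem_centralizer_singleton_iff.2 hag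
    have := orderOf_dvd_natCard (⟨a, h3⟩ : centralizer ({g} : Set G))
    rwa [Subgroup.orderOf_mk] at this
  have h3 : orderOf a ∣ s := orderOf_dvd_of_pow_eq_one ha
  have h4 : orderOf a ∣ 1 := by
    have : s.Coprime (q ^ n) := hs.pow_right n
    rw [← this]
    exact Nat.dvd_gcd h3 h2
  exact orderOf_eq_one_iff.1 (Nat.dvd_one.1 h4)

/-- **Quotients.** -/
theorem quot (S : Setup p q P N L) [Fact p.Prime] {A : Subgroup G} [A.Normal] (hA : A ≤ L) :
    Setup p q (P.map (QuotientGroup.mk' A)) (N.map (QuotientGroup.mk' A)) (L.map (QuotientGroup.mk' A)) := by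
  have hAN : A ≤ N := hA.trans S.lt.le
  have hmN : ∀ g, QuotientGroup.mk' A g ∈ N.map (QuotientGroup.mk' A) ↔ g ∈ N := mem_map_mk hAN
  have hmL : ∀ g, QuotientGroup.mk' A g ∈ L.map (QuotientGroup.mk' A) ↔ g ∈ L := mem_map_mk hA
  have hcP : ∀ c ∈ centralizer (P : Set G), QuotientGroup.mk' A c ∈
      centralizer ((P.map (QuotientGroup.mk' A) : Subgroup (G ⧸ A)) : Set (G ⧸ A)) := by
    intro c hc
    rw [mem_cent]
    rintro _ ⟨y, hy, rfl⟩
    rw [← map_mul, ← map_mul, mem_cent.1 hc y hy]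
  exact
  { primeq := S.primeq
    normN := S.normN.map _ (QuotientGroup.mk'_surjective A)
    normL := S.normL.map _ (QuotientGroup.mk'_surjective A)
    lt := by
      refine lt_of_le_of_ne (Subgroup.map_mono S.lt.le) fun h => ?_
      obtain ⟨x, hx, hxL⟩ := S.exists_mem
      exact hxL ((hmL x).1 (by rw [h]; exact (hmN x).2 hx))
    pP := S.pP.map _
    pN := fun h => S.pN (h.trans (Subgroup.card_map_dvd _ _))
    sup := by
      intro g
      obtain ⟨g, rfl⟩ := QuotientGroup.mk'_surjective A g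
      obtain ⟨n, hn, c, hc, rfl⟩ := S.sup g
      exact ⟨_, (hmN n).2 hn, _, hcP c hc, (map_mul _ _ _).symm⟩
    cov := by
      intro g hg
      obtain ⟨g, rfl⟩ := QuotientGroup.mk'_surjective A g
      rw [hmN, hmL] at hg
      obtain ⟨n, hn, hc⟩ := S.cov g hg
      exact ⟨_, (hmN n).2 hn, by rw [← map_inv, ← map_mul, ← map_mul]; exact hcP _ hc⟩
    cent := by
      intro g hg hc
      obtain ⟨g, rfl⟩ := QuotientGroup.mk'_surjective A g
      rw [hmN] at hg
      rw [hmL]
      obtain ⟨a, ha, h⟩ := S.exists_lift (m := g) (A := A) inferInstance hAN (by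
        intro y hy
        have h1 := mem_cent.1 hc (QuotientGroup.mk' A y) ⟨y, hy, rfl⟩
        rw [← QuotientGroup.eq_one_iff, ← QuotientGroup.mk'_apply, map_mul, map_mul, map_mul, h1]
        simp)
      exact (Subgroup.mul_mem_cancel_left _ (hA ha)).1 (S.cent _ (mul_mem (hAN ha) hg) h)
    conj := by
      intro g hg hgL h hh hhL
      obtain ⟨g, rfl⟩ := QuotientGroup.mk'_surjective A g
      obtain ⟨h, rfl⟩ := QuotientGroup.mk'_surjective A h
      rw [hmN] at hg hh
      rw [hmL] at hgL hhL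
      obtain ⟨k, rfl⟩ := S.conj g hg hgL h hh hhL
      exact ⟨QuotientGroup.mk' A k, by simp⟩
    abel := by
      rintro _ ⟨a, ha, rfl⟩ _ ⟨b, hb, rfl⟩
      rw [← map_inv, ← map_inv, ← map_mul, ← map_mul, ← map_mul, hmL]
      exact S.abel a ha b hb
    exp := by
      rintro _ ⟨a, ha, rfl⟩
      rw [← map_pow, hmL]
      exact S.exp a ha }

/-- **`L = 1`.** -/
theorem frob (S : Setup p q P N ⊥) (hP : P ≠ ⊥) (hPc : P ≤ centralizer (P : Set G)) :
    Cfsg.IsFrobeniusComplement (centralizer (P : Set G)) ∧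
      Cfsg.frobeniusKernel (centralizer (P : Set G)) = (N : Set G) ∧
      Nat.card (Cfsg.frobeniusKernel (centralizer (P : Set G))) = Nat.card (centralizer (P : Set G)) + 1 := by
  classical
  have := S.normN
  set H := centralizer (P : Set G) with hH
  have hHN : ∀ h ∈ H, h ∈ N → h = 1 := fun h hh hN => Subgroup.mem_bot.1 (S.cent h hN hh)
  have hcomm : ∀ h ∈ H, h ≠ 1 → ∀ n ∈ N, h * n = n * h → n = 1 := by
    intro h hh h1 n hn hc
    refine hHN n ?_ hn
    exact S.mem_cent_of_comm hh (fun h2 => h1 (hHN h hh h2)) hn hc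
  have hsm : ∀ (g y : G), (MulAut.conj g)⁻¹ • y = g⁻¹ * y * g := fun g y => by simp [MulAut.smul_def]
  have hF : Cfsg.IsFrobeniusComplement H := by
    refine ⟨fun h => hP (le_bot_iff.1 (h ▸ hPc)), ?_, ?_⟩
    · intro h
      obtain ⟨x, hx, hx1⟩ := S.exists_mem
      exact hx1 (Subgroup.mem_bot.2 (hHN x (by rw [h]; trivial) hx))
    · intro g hg
      rw [eq_bot_iff]
      intro y hy
      obtain ⟨hy1, hy2⟩ := Subgroup.mem_inf.1 hy
      rw [Subgroup.mem_pointwise_smul_iff_inv_smul_mem, hsm] at hy2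
      rw [Subgroup.mem_bot]
      by_contra hne
      obtain ⟨n, hn, c, hc, rfl⟩ := S.sup g
      -- `n⁻¹ y n ∈ H`
      have h1 : n⁻¹ * y * n ∈ H := by
        have h2 : n⁻¹ * y * n = c * ((n * c)⁻¹ * y * (n * c)) * c⁻¹ := by group
        rw [h2]
        exact mul_mem (mul_mem hc hy2) (inv_mem hc)
      have h2 : y⁻¹ * (n⁻¹ * y * n) = 1 := by
        apply hHN _ (mul_mem (inv_mem hy1) h1)
        have h3 : y⁻¹ * (n⁻¹ * y * n) = (y⁻¹ * n⁻¹ * y⁻¹⁻¹) * n := by group
        rw [h3]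
        exact mul_mem (S.normN.conj_mem _ (inv_mem hn) _) hn
      have h3 : y * n = n * y := by
        have h4 : n⁻¹ * y * n = y := by
          calc n⁻¹ * y * n = y * (y⁻¹ * (n⁻¹ * y * n)) := by group
            _ = y := by rw [h2, mul_one]
        calc y * n = n * (n⁻¹ * y * n) := by group
          _ = n * y := by rw [h4]
      have h4 := hcomm y hy1 hne n hn h3
      apply hg
      rw [h4, one_mul]
      exact hc
  have hker : Cfsg.frobeniusKernel H = (N : Set G) := by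
    ext g
    constructor
    · rintro (rfl | h)
      · exact one_mem N
      · by_contra hgN
        obtain ⟨n, hn, hnc⟩ := S.cov g (fun h1 => hgN h1.1)
        apply h n⁻¹
        rw [Subgroup.mem_pointwise_smul_iff_inv_smul_mem, hsm, inv_inv]
        exact hnc
    · intro hg
      by_cases h1 : g = 1
      · exact Or.inl h1
      · right
        intro k hk
        rw [Subgroup.mem_pointwise_smul_iff_inv_smul_mem, hsm] at hk
        have h2 := hHN _ hk (by simpa using S.normN.conj_mem g hg k⁻¹)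
        apply h1
        calc g = k * (k⁻¹ * g * k) * k⁻¹ := by group
          _ = 1 := by rw [h2]; group
  refine ⟨hF, hker, ?_⟩
  rw [hker]
  have e1 := S.index_add_one
  have e2 : (⊥ : Subgroup G).relIndex N = Nat.card N := Subgroup.relIndex_bot_left N
  have e3 : Nat.card H = N.index := by
    have h1 : IsComplement' N H := by
      refine isComplement'_of_disjoint_and_mul_eq_univ ?_ ?_
      · rw [Subgroup.disjoint_def]
        intro z hz1 hz2
        exact hHN z hz2 hz1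
      · rw [Set.eq_univ_iff_forall]
        intro g
        obtain ⟨n, hn, c, hc, rfl⟩ := S.sup g
        exact ⟨n, hn, c, hc, rfl⟩
    exact h1.symm.index_eq_card.symm
  have e4 : Nat.card ((N : Set G) : Type _) = Nat.card N := rfl
  omega

end Setup

end Cfsg.Agent.H527.OC
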