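import Mathlib
import Cfsg.Agent.H527.OneClassB
import Cfsg.Agent.Lib.CoprimeAbelian
import Cfsg.Agent.Lib.Cores
import Cfsg.Agent.Lib.NilpotentCoprime

/-!
# S4164: the structure of `N` in the set up (helper527)

* `Setup.le_cent` : if `L` is a `q`-group then `L ≤ C_G(P)`;
* `Setup.le_cent_L` : then `N ≤ C_G(L)`;
* `Setup.center` : if moreover `L ≠ 1` then `L = Z(N)`;
* `Setup.fitting` : then `N` is the Fitting subgroup;
* `Setup.isPGroup_L` : if `L` is solvable then it is a `q`-group.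
-/

set_option autoImplicit false
set_option linter.unusedSectionVars false

namespace Cfsg.Agent.H527.OC

open Subgroup
open scoped Pointwise

variable {G : Type*} [Group G] [Finite G]

/-- A nontrivial `s`-group normalised by an `s`-group contains a nontrivial fixed point. -/
theorem exists_fixed {s : ℕ} [Fact s.Prime] {D B : Subgroup G} (hD : IsPGroup s D) (hB : IsPGroup s B) (hB1 : B ≠ ⊥)
    (hn : ∀ d ∈ D, ∀ b ∈ B, d * b * d⁻¹ ∈ B) : ∃ b ∈ B, b ≠ 1 ∧ ∀ d ∈ D, d * b = b * d := by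
  let _ : MulAction D B :=
    { smul := fun d b => ⟨(d : G) * b * (d : G)⁻¹, hn d d.2 b b.2⟩
      one_smul := fun b => Subtype.ext (by show ((1 : D) : G) * b * ((1 : D) : G)⁻¹ = b; simp)
      mul_smul := fun d e b => Subtype.ext (by
        show ((d * e : D) : G) * b * ((d * e : D) : G)⁻¹ = d * (e * b * (e : G)⁻¹) * (d : G)⁻¹
        rw [Subgroup.coe_mul]; group) }
  have hdvd : s ∣ Nat.card B := by
    obtain ⟨n, hn⟩ := IsPGroup.iff_card.1 hB
    rw [hn]
    refine dvd_pow_self s ?_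
    rintro rfl
    rw [pow_zero] at hn
    exact hB1 (Subgroup.card_eq_one.1 hn)
  have hfix : (1 : B) ∈ MulAction.fixedPoints D B := by
    intro d
    apply Subtype.ext
    show (d : G) * ((1 : B) : G) * (d : G)⁻¹ = ((1 : B) : G)
    simp
  obtain ⟨b, hb, hne⟩ := hD.exists_fixed_point_of_prime_dvd_card_of_fixed_point B hdvd hfix
  refine ⟨b, b.2, fun h => hne (Subtype.ext h.symm), fun d hd => ?_⟩
  have := congrArg Subtype.val (hb ⟨d, hd⟩)
  change d * (b : G) * d⁻¹ = b at this
  rw [mul_inv_eq_iff_eq_mul] at this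
  exact this

/-- `[X, N] < X` for `1 ≠ X ≤ N`, `X` normal, `N` nilpotent. -/
theorem commutator_lt {X N : Subgroup G} [X.Normal] (hXN : X ≤ N) (hX : X ≠ ⊥) (hN : Group.IsNilpotent N) :
    ⁅X, N⁆ < X := by
  have hle : ⁅X, N⁆ ≤ X := Subgroup.commutator_le_left X N
  refine lt_of_le_of_ne hle fun heq => hX ?_
  have h1 : X.subgroupOf N ≤ ⁅X.subgroupOf N, (⊤ : Subgroup N)⁆ := by
    have h2 : (⁅X.subgroupOf N, (⊤ : Subgroup N)⁆).map N.subtype = X := by
      rw [Subgroup.map_commutator, Subgroup.map_subgroupOf_eq_of_le hXN, ← MonoidHom.range_eq_map,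
        Subgroup.range_subtype]
      exact heq
    intro z hz
    have h3 : (z : G) ∈ (⁅X.subgroupOf N, (⊤ : Subgroup N)⁆).map N.subtype := by
      rw [h2]; exact Subgroup.mem_subgroupOf.1 hz
    obtain ⟨w, hw, hwz⟩ := h3
    have : w = z := Subtype.ext hwz
    rw [← this]
    exact hw
  obtain ⟨n, hn⟩ := Subgroup.nilpotent_iff_lowerCentralSeries.mp hN
  have h2 : ∀ m : ℕ, X.subgroupOf N ≤ (⊤ : Subgroup N).lowerCentralSeries m := by
    intro m
    induction m with
    | zero => exact le_top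
    | succ m ih => exact h1.trans (Subgroup.commutator_mono ih le_rfl)
  have h3 := h2 n
  rw [hn, le_bot_iff, Subgroup.subgroupOf_eq_bot] at h3
  rw [eq_bot_iff]
  intro z hz
  exact (Subgroup.disjoint_def.1 h3) hz (hXN hz)

variable {p q : ℕ} {P N L : Subgroup G}

namespace Setup

theorem isPGroup_N (S : Setup p q P N L) (hL : IsPGroup q L) : IsPGroup q N := by
  intro n
  obtain ⟨k, hk⟩ := hL ⟨_, S.exp n n.2⟩
  refine ⟨k + 1, Subtype.ext ?_⟩
  have h1 := congrArg Subtype.val hk
  change ((n : G) ^ q) ^ q ^ k = 1 at h1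
  show (n : G) ^ (q ^ (k + 1)) = 1
  rw [pow_succ', pow_mul]
  exact h1

theorem nilp (S : Setup p q P N L) (hL : IsPGroup q L) : Group.IsNilpotent N := by
  have : Fact q.Prime := ⟨S.primeq⟩
  exact (S.isPGroup_N hL).isNilpotent

/-- If `L` is a `q`-group then `P` centralises `L`. -/
theorem le_cent (S : Setup p q P N L) (hL : IsPGroup q L) : L ≤ centralizer (P : Set G) := by
  have := S.normN
  have hnil := S.nilp hL
  have key : ∀ (k : ℕ) (X : Subgroup G), X.Normal → X ≤ L → Nat.card X = k → X ≤ centralizer (P : Set G) := by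
    intro k
    induction k using Nat.strong_induction_on with
    | _ k ih =>
      intro X hXn hXL hXk
      by_cases hX : X = ⊥
      · rw [hX]; exact bot_le
      have hXN := hXL.trans S.lt.le
      have hlt := commutator_lt hXN hX hnil
      have hcard : Nat.card (⁅X, N⁆ : Subgroup G) < k := by
        rw [← hXk]
        have h1 := Subgroup.card_le_of_le hlt.le
        refine lt_of_le_of_ne h1 fun h2 => hlt.ne (Subgroup.eq_of_le_of_card_ge hlt.le h2.ge)
      have h1 := ih _ hcard ⁅X, N⁆ inferInstance (hlt.le.trans hXL) rfl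
      intro l hl
      obtain ⟨n, hn, hc⟩ := S.cov l (fun h => h.2 (hXL hl))
      -- `n l n⁻¹ = [n, l] l`
      have h2 : n * l * n⁻¹ * l⁻¹ ∈ (⁅X, N⁆ : Subgroup G) := by
        rw [Subgroup.commutator_comm]
        exact Subgroup.commutator_mem_commutator hn hl
      have h3 : l = (n * l * n⁻¹ * l⁻¹)⁻¹ * (n * l * n⁻¹) := by group
      rw [h3]
      exact mul_mem (inv_mem (h1 h2)) hc
  exact key _ L S.normL le_rfl rfl

/-- ... and `N` centralises `L`. -/
theorem le_cent_L (S : Setup p q P N L) [Fact p.Prime] (hL : IsPGroup q L) : N ≤ centralizer (L : Set G) := by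
  have := S.normN
  have := S.normL
  have hLP := S.le_cent hL
  have hn : (centralizer (L : Set G)).Normal := Subgroup.normal_centralizer
  have hPL : P ≤ centralizer (L : Set G) := by
    intro y hy
    rw [mem_cent]
    intro l hl
    exact (mem_cent.1 (hLP hl) y hy).symm
  obtain ⟨x, hx, hxL⟩ := S.exists_mem
  obtain ⟨y, hy, hyx⟩ : ∃ y ∈ P, ¬ y * x * y⁻¹ * x⁻¹ ∈ L := by
    by_contra hcon
    push Not at hcon
    exact hxL (S.mem_of_forall hx hcon)
  have hc1 : y * x * y⁻¹ * x⁻¹ ∈ centralizer (L : Set G) := by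
    have h1 := hn.conj_mem _ (inv_mem (hPL hy)) x
    have h2 : y * x * y⁻¹ * x⁻¹ = y * (x * y⁻¹ * x⁻¹) := by group
    rw [h2]
    exact mul_mem (hPL hy) h1
  have hc2 : y * x * y⁻¹ * x⁻¹ ∈ N := mul_mem (S.normN.conj_mem _ hx _) (inv_mem hx)
  have h1 : ∀ g ∈ N, g ∉ L → g ∈ centralizer (L : Set G) := by
    intro g hg hgL
    obtain ⟨k, hk⟩ := S.conj _ hc2 hyx g hg hgL
    rw [← hk]
    exact hn.conj_mem _ hc1 k
  intro g hg
  by_cases hgL : g ∈ L
  · have h2 := h1 x hx hxL
    have h3 := h1 (x * g) (mul_mem hx hg) (fun h => hxL ((Subgroup.mul_mem_cancel_right _ hgL).1 h))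
    exact (Subgroup.mul_mem_cancel_left _ h2).1 h3
  · exact h1 g hg hgL

/-- If `L ≠ 1` is a `q`-group then `N` is not abelian, more precisely an element of `N` centralising `N` is in `L`. -/
theorem mem_L_of_central (S : Setup p q P N L) [Fact p.Prime] (hL : IsPGroup q L) (hL1 : L ≠ ⊥) {z : G} (hz : z ∈ N)
    (hc : z ∈ centralizer (N : Set G)) : z ∈ L := by
  have := S.normN
  have := S.normL
  by_contra hzL
  have hn : (centralizer (N : Set G)).Normal := Subgroup.normal_centralizer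
  -- `N` is abelian
  have h1 : ∀ g ∈ N, g ∉ L → g ∈ centralizer (N : Set G) := by
    intro g hg hgL
    obtain ⟨k, hk⟩ := S.conj _ hz hzL g hg hgL
    rw [← hk]
    exact hn.conj_mem _ hc k
  have hab : ∀ g ∈ N, g ∈ centralizer (N : Set G) := by
    intro g hg
    by_cases hgL : g ∈ L
    · have h3 := h1 (z * g) (mul_mem hz hg) (fun h => hzL ((Subgroup.mul_mem_cancel_right _ hgL).1 h))
      exact (Subgroup.mul_mem_cancel_left _ hc).1 h3
    · exact h1 g hg hgL
  have hcomm : ∀ a ∈ N, ∀ b ∈ N, a * b = b * a := fun a ha b hb => (mem_cent.1 (hab b hb) a ha)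
  have hPN : P ≤ normalizer (N : Set G) := by
    rw [Subgroup.normalizer_eq_top]
    exact le_top
  have hcop : (Nat.card P).Coprime (Nat.card N) := by
    obtain ⟨k, hk⟩ := IsPGroup.iff_card.1 S.pP
    rw [hk]
    exact Nat.Coprime.pow_left k ((Nat.Prime.coprime_iff_not_dvd Fact.out).2 S.pN)
  have hinf := Lib.CoprimeAbelian.inf_commutator_eq_bot P N hcomm hPN hcop
  have hBN : (⁅N, P⁆ : Subgroup G) ≤ N := Subgroup.commutator_le_left N P
  -- `[N, P]` is normal
  have hBn : (⁅N, P⁆ : Subgroup G).Normal := by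
    refine ⟨fun b hb g => ?_⟩
    obtain ⟨n, hn', c, hcP, rfl⟩ := S.sup g
    have h2 : c * b * c⁻¹ ∈ (⁅N, P⁆ : Subgroup G) := by
      have h3 : (⁅N, P⁆ : Subgroup G).map (MulAut.conj c).toMonoidHom = ⁅N, P⁆ := by
        rw [Subgroup.map_commutator]
        congr 1
        · ext y
          constructor
          · rintro ⟨w, hw, rfl⟩
            exact S.normN.conj_mem _ hw c
          · intro hy
            refine ⟨c⁻¹ * y * c, by simpa using S.normN.conj_mem _ hy c⁻¹, ?_⟩
            show c * (c⁻¹ * y * c) * c⁻¹ = y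
            group
        · ext y
          constructor
          · rintro ⟨w, hw, rfl⟩
            show c * w * c⁻¹ ∈ P
            rw [← mem_cent.1 hcP w hw, mul_inv_cancel_right]
            exact hw
          · intro hy
            refine ⟨y, hy, ?_⟩
            show c * y * c⁻¹ = y
            rw [← mem_cent.1 hcP y hy, mul_inv_cancel_right]
      rw [← h3]
      exact ⟨b, hb, rfl⟩
    have h3 : n * c * b * (n * c)⁻¹ = c * b * c⁻¹ := by
      calc n * c * b * (n * c)⁻¹ = n * (c * b * c⁻¹) * n⁻¹ := by group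
        _ = (c * b * c⁻¹) * n * n⁻¹ := by rw [hcomm n hn' _ (hBN h2)]
        _ = c * b * c⁻¹ := by group
    rw [h3]
    exact h2
  -- it contains an element outside `L`
  obtain ⟨y, hy, hyz⟩ : ∃ y ∈ P, ¬ y * z * y⁻¹ * z⁻¹ ∈ L := by
    by_contra hcon
    push Not at hcon
    exact hzL (S.mem_of_forall hz hcon)
  have h2 : y * z * y⁻¹ * z⁻¹ ∈ (⁅N, P⁆ : Subgroup G) := by
    rw [Subgroup.commutator_comm]
    exact Subgroup.commutator_mem_commutator hy hz
  have h3 : ∀ g ∈ N, g ∉ L → g ∈ (⁅N, P⁆ : Subgroup G) := by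
    intro g hg hgL
    obtain ⟨k, hk⟩ := S.conj _ (hBN h2) hyz g hg hgL
    rw [← hk]
    exact hBn.conj_mem _ h2 k
  apply hL1
  rw [eq_bot_iff]
  intro l hl
  have h4 : l ∈ (⁅N, P⁆ : Subgroup G) := by
    have h5 := h3 (z * l) (mul_mem hz (S.lt.le hl)) (fun h => hzL ((Subgroup.mul_mem_cancel_right _ hl).1 h))
    exact (Subgroup.mul_mem_cancel_left _ (h3 z hz hzL)).1 h5
  rw [← hinf]
  exact Subgroup.mem_inf.2 ⟨Subgroup.mem_inf.2 ⟨S.lt.le hl, S.le_cent hL hl⟩, h4⟩

/-- `L = Z(N)`. -/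
theorem center (S : Setup p q P N L) [Fact p.Prime] (hL : IsPGroup q L) (hL1 : L ≠ ⊥) :
    (Subgroup.center N).map N.subtype = L := by
  apply le_antisymm
  · rintro _ ⟨z, hz, rfl⟩
    refine S.mem_L_of_central hL hL1 z.2 ?_
    rw [mem_cent]
    intro n hn
    have := Subgroup.mem_center_iff.1 hz ⟨n, hn⟩
    exact congrArg Subtype.val this
  · intro l hl
    refine ⟨⟨l, S.lt.le hl⟩, ?_, rfl⟩
    rw [SetLike.mem_coe, Subgroup.mem_center_iff]
    intro n
    apply Subtype.ext
    exact (mem_cent.1 (S.le_cent_L hL n.2) l hl).symm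

/-- `|G : N|` is prime to `q`. -/
theorem not_dvd_index (S : Setup p q P N L) : ¬ q ∣ N.index := by
  intro h
  obtain ⟨n, hn⟩ := S.exists_pow
  have h1 := S.index_add_one
  have h2 := S.two_le
  rw [hn] at h1 h2
  have hn0 : n ≠ 0 := by
    rintro rfl
    simp at h2
  have h3 : q ∣ N.index + 1 := by
    rw [h1]
    exact dvd_pow_self q hn0
  have h4 : q ∣ 1 := (Nat.dvd_add_right h).1 h3
  exact S.primeq.one_lt.ne' (Nat.dvd_one.1 h4)

/-- a normal `q`-subgroup is in `N`. -/
theorem le_N_of_isPGroup (S : Setup p q P N L) {K : Subgroup G} (hK : IsPGroup q K) : K ≤ N := by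
  have := S.normN
  have : Fact q.Prime := ⟨S.primeq⟩
  intro k hk
  obtain ⟨a, ha⟩ := hK ⟨k, hk⟩
  have h1 : k ^ q ^ a = 1 := congrArg Subtype.val ha
  have h2 : orderOf (QuotientGroup.mk' N k) ∣ q ^ a := by
    apply orderOf_dvd_of_pow_eq_one
    rw [← map_pow, h1, map_one]
  have h3 : orderOf (QuotientGroup.mk' N k) ∣ N.index := orderOf_dvd_natCard _
  have h4 : orderOf (QuotientGroup.mk' N k) = 1 := by
    have h5 : (q ^ a).Coprime N.index := Nat.Coprime.pow_left a ((Nat.Prime.coprime_iff_not_dvd S.primeq).2 S.not_dvd_index)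
    exact Nat.dvd_one.1 (h5 ▸ Nat.dvd_gcd h2 h3)
  rw [orderOf_eq_one_iff, QuotientGroup.mk'_apply, QuotientGroup.eq_one_iff] at h4
  exact h4

/-- The Fitting subgroup. -/
theorem fitting (S : Setup p q P N L) [Fact p.Prime] (hL : IsPGroup q L) : Cfsg.fittingSubgroup G = N := by
  have := S.normN
  have : Fact q.Prime := ⟨S.primeq⟩
  apply le_antisymm
  · apply S.le_N_of_isPGroup
    have hnil : Group.IsNilpotent (Cfsg.fittingSubgroup G) := Lib.Cores.fittingSubgroup_isNilpotent
    obtain ⟨x, hx, hxL⟩ := S.exists_mem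
    have hxF : x ∈ Cfsg.fittingSubgroup G := Lib.Cores.le_fittingSubgroup S.normN (S.nilp hL) hx
    intro g
    set m := orderOf g with hm
    have hm0 : m ≠ 0 := (orderOf_pos g).ne'
    refine ⟨m.factorization q, ?_⟩
    have h1 : orderOf (g ^ q ^ m.factorization q) = ordCompl[q] m := by
      rw [orderOf_pow' _ (pow_pos S.primeq.pos _).ne', ← hm, Nat.gcd_eq_right (Nat.ordProj_dvd m q)]
    have hcop : (ordCompl[q] m).Coprime q := (Nat.coprime_ordCompl S.primeq hm0).symm
    obtain ⟨b, hb⟩ := S.isPGroup_N hL ⟨x, hx⟩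
    have hxo : orderOf (⟨x, hxF⟩ : Cfsg.fittingSubgroup G) ∣ q ^ b := by
      have hb' : x ^ q ^ b = 1 := congrArg Subtype.val hb
      apply orderOf_dvd_of_pow_eq_one
      exact Subtype.ext hb'
    have h2 : Commute (g ^ q ^ m.factorization q) (⟨x, hxF⟩ : Cfsg.fittingSubgroup G) := by
      apply Lib.NilpotentCoprime.commute_of_coprime_orderOf
      rw [h1]
      exact Nat.Coprime.coprime_dvd_right hxo (hcop.pow_right b)
    have h3 : ((g ^ q ^ m.factorization q : Cfsg.fittingSubgroup G) : G) = 1 := by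
      apply S.eq_one_of_comm hx hxL (congrArg Subtype.val h2.eq) hcop
      rw [← h1, ← Subgroup.coe_pow, pow_orderOf_eq_one, Subgroup.coe_one]
    exact Subtype.ext h3
  · exact Lib.Cores.le_fittingSubgroup S.normN (S.nilp hL)

end Setup

end Cfsg.Agent.H527.OC
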