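import Mathlib
import Cfsg.Agent.H527.OneClassC
import Cfsg.Agent.SolvableStructure.MinimalNormal

/-!
# S4164: `L` is a `q`-group (helper527)

* `Setup.false_of_prime` : there is no normal elementary abelian `s`-subgroup `1 ≠ A ≤ L`, `s ≠ q`, with `[L, P] ≤ A`;
* `Setup.isPGroup_L` : if `L` is solvable then it is a `q`-group.
-/

set_option autoImplicit false
set_option linter.unusedSectionVars false

namespace Cfsg.Agent.H527.OC

open Subgroup
open scoped Pointwise

variable {G : Type*} [Group G] [Finite G]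

variable {p q : ℕ} {P N L : Subgroup G}

namespace Setup

/-- the count `|A| - 1 = |N : L| (|C_A(P)| - 1)`. -/
theorem card_sub_one (S : Setup p q P N L) [Fact p.Prime] {A : Subgroup G} [A.Normal] (hA : A ≤ L) {s : ℕ}
    (hsq : s.Coprime q) (hexp : ∀ a ∈ A, a ^ s = 1) (hcomm : ∀ a ∈ A, ∀ b ∈ A, a * b = b * a)
    (hLP : ∀ l ∈ L, ∀ y ∈ P, y * l * y⁻¹ * l⁻¹ ∈ A) :
    Nat.card A - 1 = L.relIndex N * (Nat.card (A ⊓ centralizer (P : Set G) : Subgroup G) - 1) := by
  classical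
  have := S.normN
  have := S.normL
  set V := A ⊓ centralizer (P : Set G) with hV
  have hAN : A ≤ N := hA.trans S.lt.le
  -- `L` normalises `V`
  have hLV : ∀ l ∈ L, ∀ v ∈ V, l * v * l⁻¹ ∈ V := by
    intro l hl v hv
    obtain ⟨hvA, hvP⟩ := Subgroup.mem_inf.1 hv
    obtain ⟨a, ha, hc⟩ := S.exists_lift (m := l) (A := A) inferInstance hAN (hLP l hl)
    have h1 : a * l * v * (a * l)⁻¹ ∈ A := Subgroup.Normal.conj_mem inferInstance v hvA _
    have h2 : l * v * l⁻¹ = a * l * v * (a * l)⁻¹ := by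
      calc l * v * l⁻¹ = a⁻¹ * (a * l * v * (a * l)⁻¹) * a := by group
        _ = a⁻¹ * a * (a * l * v * (a * l)⁻¹) := by rw [mul_assoc, hcomm _ h1 a ha, ← mul_assoc]
        _ = a * l * v * (a * l)⁻¹ := by rw [inv_mul_cancel, one_mul]
    rw [h2]
    exact Subgroup.mem_inf.2 ⟨h1, mul_mem (mul_mem hc hvP) (inv_mem hc)⟩
  -- intersections
  have hTI : ∀ m ∈ N, ∀ v ∈ V, v ≠ 1 → m⁻¹ * v * m ∈ V → m ∈ L := by
    intro m hm v hv hv1 hmv
    by_contra hmL
    obtain ⟨y, hy, hym⟩ : ∃ y ∈ P, ¬ y * m * y⁻¹ * m⁻¹ ∈ L := by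
      by_contra hcon
      push Not at hcon
      exact hmL (S.mem_of_forall hm hcon)
    have hcN : y * m * y⁻¹ * m⁻¹ ∈ N := mul_mem (S.normN.conj_mem _ hm _) (inv_mem hm)
    have h1 : y * v = v * y := mem_cent.1 (Subgroup.mem_inf.1 hv).2 y hy
    have h2 : y * (m⁻¹ * v * m) = (m⁻¹ * v * m) * y := mem_cent.1 (Subgroup.mem_inf.1 hmv).2 y hy
    have h3 : Commute v (m * y⁻¹ * m⁻¹) := by
      show v * (m * y⁻¹ * m⁻¹) = (m * y⁻¹ * m⁻¹) * v
      have h4 : (m⁻¹ * v * m) * y⁻¹ = y⁻¹ * (m⁻¹ * v * m) := by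
        rw [mul_inv_eq_iff_eq_mul, mul_assoc y⁻¹, ← h2, inv_mul_cancel_left]
      calc v * (m * y⁻¹ * m⁻¹) = m * ((m⁻¹ * v * m) * y⁻¹) * m⁻¹ := by group
        _ = m * (y⁻¹ * (m⁻¹ * v * m)) * m⁻¹ := by rw [h4]
        _ = (m * y⁻¹ * m⁻¹) * v := by group
    have h4 : Commute v (y * m * y⁻¹ * m⁻¹) := by
      have : y * m * y⁻¹ * m⁻¹ = y * (m * y⁻¹ * m⁻¹) := by group
      rw [this]
      exact (show Commute v y from h1.symm).mul_right h3
    exact hv1 (S.eq_one_of_comm hcN hym h4.eq hsq (hexp v (Subgroup.mem_inf.1 hv).1))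
  let X := N ⧸ L.subgroupOf N
  let f : X × G → G := fun z => ((z.1.out : N) : G) * z.2 * ((z.1.out : N) : G)⁻¹
  have himg : f '' ((Set.univ : Set X) ×ˢ ((V : Set G) \ {1})) = (A : Set G) \ {1} := by
    ext a
    constructor
    · rintro ⟨⟨c, v⟩, ⟨-, hv, hv1⟩, rfl⟩
      refine ⟨Subgroup.Normal.conj_mem inferInstance v (Subgroup.mem_inf.1 hv).1 _, ?_⟩
      rw [Set.mem_singleton_iff]
      intro h1
      apply hv1
      rw [Set.mem_singleton_iff]
      have h1' : ((c.out : N) : G) * v * ((c.out : N) : G)⁻¹ = 1 := h1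
      change v = 1
      calc v = ((c.out : N) : G)⁻¹ * (((c.out : N) : G) * v * ((c.out : N) : G)⁻¹) * ((c.out : N) : G) := by group
        _ = 1 := by rw [h1']; group
    · rintro ⟨ha, ha1⟩
      rw [Set.mem_singleton_iff] at ha1
      obtain ⟨n, hn, hc⟩ := S.cov a (fun h => h.2 (hA ha))
      obtain ⟨l, hl⟩ := QuotientGroup.mk_out_eq_mul (L.subgroupOf N) ⟨n⁻¹, inv_mem hn⟩
      have hlL : ((l : N) : G) ∈ L := Subgroup.mem_subgroupOf.1 l.2
      have hvV : n * a * n⁻¹ ∈ V := Subgroup.mem_inf.2 ⟨Subgroup.Normal.conj_mem inferInstance a ha _, hc⟩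
      have h1 := hLV _ (inv_mem hlL) _ hvV
      refine ⟨(((⟨n⁻¹, inv_mem hn⟩ : N) : X), ((l : N) : G)⁻¹ * (n * a * n⁻¹) * ((l : N) : G)⁻¹⁻¹),
        ⟨Set.mem_univ _, h1, ?_⟩, ?_⟩
      · rw [Set.mem_singleton_iff]
        intro h2
        change ((l : N) : G)⁻¹ * (n * a * n⁻¹) * ((l : N) : G)⁻¹⁻¹ = 1 at h2
        apply ha1
        calc a = n⁻¹ * (((l : N) : G) * (((l : N) : G)⁻¹ * (n * a * n⁻¹) * ((l : N) : G)⁻¹⁻¹) * ((l : N) : G)⁻¹) * n := by
              group
          _ = 1 := by rw [h2]; group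
      · show (((((⟨n⁻¹, inv_mem hn⟩ : N) : X)).out : N) : G) * (((l : N) : G)⁻¹ * (n * a * n⁻¹) * ((l : N) : G)⁻¹⁻¹) *
          (((((⟨n⁻¹, inv_mem hn⟩ : N) : X)).out : N) : G)⁻¹ = a
        have h2 : ((((⟨n⁻¹, inv_mem hn⟩ : N) : X)).out : N) = ⟨n⁻¹, inv_mem hn⟩ * (l : N) := hl
        rw [h2, Subgroup.coe_mul]
        show n⁻¹ * ((l : N) : G) * (((l : N) : G)⁻¹ * (n * a * n⁻¹) * ((l : N) : G)⁻¹⁻¹) * (n⁻¹ * ((l : N) : G))⁻¹ = a
        group
  have hinj : Set.InjOn f ((Set.univ : Set X) ×ˢ ((V : Set G) \ {1})) := by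
    rintro ⟨c, v⟩ ⟨-, hv, hv1⟩ ⟨c', v'⟩ ⟨-, hv', hv1'⟩ h
    change ((c.out : N) : G) * v * ((c.out : N) : G)⁻¹ = ((c'.out : N) : G) * v' * ((c'.out : N) : G)⁻¹ at h
    change v ∈ V at hv
    change v' ∈ V at hv'
    have h1 : (((c.out : N) : G)⁻¹ * ((c'.out : N) : G))⁻¹ * v * (((c.out : N) : G)⁻¹ * ((c'.out : N) : G)) = v' := by
      calc _ = ((c'.out : N) : G)⁻¹ * (((c.out : N) : G) * v * ((c.out : N) : G)⁻¹) * ((c'.out : N) : G) := by group
        _ = v' := by rw [h]; group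
    have h2 := hTI (((c.out : N) : G)⁻¹ * ((c'.out : N) : G)) (mul_mem (inv_mem c.out.2) c'.out.2) v hv hv1
      (by rw [h1]; exact hv')
    have h3 : c = c' := by
      rw [← QuotientGroup.out_eq' c, ← QuotientGroup.out_eq' c', QuotientGroup.eq, Subgroup.mem_subgroupOf]
      exact h2
    subst h3
    have h4 : v = v' := by
      rw [← h1]; group
    rw [h4]
  have h1 := hinj.ncard_image
  rw [himg, Set.ncard_prod, Set.ncard_univ, Set.ncard_sdiff_singleton_of_mem (one_mem A),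
    Set.ncard_sdiff_singleton_of_mem (one_mem V)] at h1
  exact h1

/-- **There is no such `A`.** -/
theorem false_of_prime (S : Setup p q P N L) [Fact p.Prime] {A : Subgroup G} [A.Normal] (hA : A ≤ L) (hA1 : A ≠ ⊥)
    {s : ℕ} (hs : s.Prime) (hsq : s ≠ q) (hexp : ∀ a ∈ A, a ^ s = 1) (hcomm : ∀ a ∈ A, ∀ b ∈ A, a * b = b * a)
    (hLP : ∀ l ∈ L, ∀ y ∈ P, y * l * y⁻¹ * l⁻¹ ∈ A) : False := by
  classical
  have := S.normN
  have := S.normL
  have : Fact s.Prime := ⟨hs⟩
  have hAN : A ≤ N := hA.trans S.lt.le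
  have hcount := S.card_sub_one hA ((Nat.coprime_primes hs S.primeq).2 hsq) hexp hcomm hLP
  set V := A ⊓ centralizer (P : Set G) with hV
  have hAs : IsPGroup s A := fun a => ⟨1, by rw [pow_one]; exact Subtype.ext (hexp a a.2)⟩
  have hVs : IsPGroup s V := hAs.to_le inf_le_left
  have h2 := S.two_le
  have hAc : 2 ≤ Nat.card A := by
    have h1 : Nat.card A ≠ 0 := Nat.card_pos.ne'
    have h3 : Nat.card A ≠ 1 := fun h => hA1 (Subgroup.card_eq_one.1 h)
    omega
  have hVc : 2 ≤ Nat.card V := by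
    have h1 : Nat.card V ≠ 0 := Nat.card_pos.ne'
    have h3 : Nat.card V ≠ 1 := by
      intro h
      rw [h] at hcount
      simp at hcount
      omega
    omega
  have hdvd : ∀ {K : Subgroup G}, IsPGroup s K → 2 ≤ Nat.card K → s ∣ Nat.card K := by
    intro K hK hK2
    obtain ⟨n, hn⟩ := IsPGroup.iff_card.1 hK
    rw [hn]
    refine dvd_pow_self s ?_
    rintro rfl
    rw [hn] at hK2
    simp at hK2
  -- `s ∣ |G : N|`
  have hsN : s ∣ N.index := by
    have h1 := S.index_add_one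
    obtain ⟨a, ha⟩ := hdvd hAs hAc
    obtain ⟨v, hv⟩ := hdvd hVs hVc
    have h3 : (N.index + 1) * (Nat.card V - 1) + 1 = Nat.card A := by
      rw [h1, ← hcount]
      omega
    have h4 : (N.index + 1) * Nat.card V = Nat.card A + N.index := by
      obtain ⟨k, hk⟩ := Nat.exists_eq_add_of_le hVc
      have h5 : Nat.card V - 1 = 1 + k := by omega
      rw [h5] at h3
      rw [← h3, hk]
      ring
    have h5 : s ∣ Nat.card A + N.index := by
      rw [← h4]
      exact Dvd.dvd.mul_left (hdvd hVs hVc) _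
    exact (Nat.dvd_add_right (hdvd hAs hAc)).1 h5
  -- an `s`-element of `C_G(P)` outside `N`
  obtain ⟨d, hdP, hdN, e, hde⟩ : ∃ d ∈ centralizer (P : Set G), d ∉ N ∧ ∃ e : ℕ, d ^ s ^ e = 1 := by
    obtain ⟨g, hg⟩ := exists_prime_orderOf_dvd_card' (G := G ⧸ N) s hsN
    obtain ⟨g, rfl⟩ := QuotientGroup.mk'_surjective N g
    obtain ⟨n, hn, c, hc, rfl⟩ := S.sup g
    have h1 : QuotientGroup.mk' N (n * c) = QuotientGroup.mk' N c := by
      rw [map_mul, (show QuotientGroup.mk' N n = 1 from (QuotientGroup.eq_one_iff n).2 hn), one_mul]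
    rw [h1] at hg
    set m := orderOf c with hm
    have hm0 : m ≠ 0 := (orderOf_pos c).ne'
    have hcop : (ordCompl[s] m).Coprime s := (Nat.coprime_ordCompl hs hm0).symm
    refine ⟨c ^ ordCompl[s] m, pow_mem hc _, ?_, m.factorization s, ?_⟩
    · intro h3
      have h4 : (QuotientGroup.mk' N c) ^ ordCompl[s] m = 1 := by
        rw [← map_pow]
        exact (QuotientGroup.eq_one_iff _).2 h3
      have h5 := orderOf_dvd_of_pow_eq_one h4
      rw [hg] at h5
      exact hs.one_lt.ne' (Nat.dvd_one.1 (hcop ▸ Nat.dvd_gcd h5 dvd_rfl))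
    · rw [← pow_mul, mul_comm, Nat.ordProj_mul_ordCompl_eq_self, pow_orderOf_eq_one]
  -- `[A, P]`
  have hPA : P ≤ normalizer (A : Set G) := by
    rw [Subgroup.normalizer_eq_top]
    exact le_top
  have hcop : (Nat.card P).Coprime (Nat.card A) := by
    obtain ⟨k, hk⟩ := IsPGroup.iff_card.1 S.pP
    rw [hk]
    exact Nat.Coprime.pow_left k ((Nat.Prime.coprime_iff_not_dvd Fact.out).2
      (fun h => S.pN (h.trans (Subgroup.card_dvd_of_le hAN))))
  have hinf := Lib.CoprimeAbelian.inf_commutator_eq_bot P A hcomm hPA hcop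
  have hBA : (⁅A, P⁆ : Subgroup G) ≤ A := Subgroup.commutator_le_left A P
  have hB1 : (⁅A, P⁆ : Subgroup G) ≠ ⊥ := by
    intro h
    rw [Subgroup.commutator_eq_bot_iff_le_centralizer] at h
    have h3 : V = A := inf_eq_left.2 h
    rw [h3] at hcount
    have h4 : 2 * (Nat.card A - 1) ≤ L.relIndex N * (Nat.card A - 1) := Nat.mul_le_mul_right _ h2
    omega
  have hdB : ∀ z ∈ zpowers d, ∀ b ∈ (⁅A, P⁆ : Subgroup G), z * b * z⁻¹ ∈ (⁅A, P⁆ : Subgroup G) := by
    intro z hz b hb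
    have hzP : z ∈ centralizer (P : Set G) := by
      obtain ⟨k, rfl⟩ := Subgroup.mem_zpowers_iff.1 hz
      exact zpow_mem hdP k
    have h3 : (⁅A, P⁆ : Subgroup G).map (MulAut.conj z).toMonoidHom = ⁅A, P⁆ := by
      rw [Subgroup.map_commutator]
      congr 1
      · ext y
        constructor
        · rintro ⟨w, hw, rfl⟩
          exact Subgroup.Normal.conj_mem inferInstance _ hw z
        · intro hy
          refine ⟨z⁻¹ * y * z, by simpa using Subgroup.Normal.conj_mem (H := A) inferInstance _ hy z⁻¹, ?_⟩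
          show z * (z⁻¹ * y * z) * z⁻¹ = y
          group
      · ext y
        constructor
        · rintro ⟨w, hw, rfl⟩
          show z * w * z⁻¹ ∈ P
          rw [← mem_cent.1 hzP w hw, mul_inv_cancel_right]
          exact hw
        · intro hy
          refine ⟨y, hy, ?_⟩
          show z * y * z⁻¹ = y
          rw [← mem_cent.1 hzP y hy, mul_inv_cancel_right]
    rw [← h3]
    exact ⟨b, hb, rfl⟩
  have hds : IsPGroup s (zpowers d) := by
    rintro ⟨z, hz⟩
    refine ⟨e, Subtype.ext ?_⟩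
    obtain ⟨k, rfl⟩ := Subgroup.mem_zpowers_iff.1 hz
    show (d ^ k) ^ s ^ e = 1
    rw [← zpow_natCast, ← zpow_mul, mul_comm, zpow_mul, zpow_natCast, hde, one_zpow]
  obtain ⟨b, hb, hb1, hbd⟩ := exists_fixed hds (hAs.to_le hBA) hB1 hdB
  apply hb1
  have h3 := S.mem_cent_of_comm hdP hdN (hAN (hBA hb)) (hbd d (Subgroup.mem_zpowers d))
  have h4 : b ∈ (A ⊓ centralizer (P : Set G)) ⊓ ⁅A, P⁆ :=
    Subgroup.mem_inf.2 ⟨Subgroup.mem_inf.2 ⟨hBA hb, h3⟩, hb⟩
  rw [hinf] at h4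
  exact Subgroup.mem_bot.1 h4

end Setup

/-- **`L` is a `q`-group.** -/
theorem isPGroup_L_aux {p q : ℕ} [Fact p.Prime] : ∀ (k : ℕ) {G : Type*} [Group G] [Finite G] {P N L : Subgroup G},
    Nat.card G = k → Setup p q P N L → Group.IsSolvable L → IsPGroup q L := by
  intro k
  induction k using Nat.strong_induction_on with
  | _ k ih =>
  intro G _ _ P N L hk S hsol
  classical
  have := S.normN
  have := S.normL
  have hq : Fact q.Prime := ⟨S.primeq⟩
  by_cases hL : L = ⊥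
  · rw [hL]
    exact IsPGroup.of_bot
  -- a minimal normal subgroup of `G` contained in `L`
  obtain ⟨A, ⟨hAn, hAL, hA1⟩, hmin⟩ : ∃ A : Subgroup G, (A.Normal ∧ A ≤ L ∧ A ≠ ⊥) ∧
      ∀ B : Subgroup G, (B.Normal ∧ B ≤ L ∧ B ≠ ⊥) → B ≤ A → A ≤ B := by
    obtain ⟨A, hA⟩ := (Set.toFinite {A : Subgroup G | A.Normal ∧ A ≤ L ∧ A ≠ ⊥}).exists_minimal
      ⟨L, S.normL, le_rfl, hL⟩
    exact ⟨A, hA.1, fun B hB hBA => hA.2 hB hBA⟩
  have hmin' : ∀ K : Subgroup G, K.Normal → K ≤ A → K = ⊥ ∨ K = A := by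
    intro K hK hKA
    by_cases hK1 : K = ⊥
    · exact Or.inl hK1
    · exact Or.inr (le_antisymm hKA (hmin K ⟨hK, hKA.trans hAL, hK1⟩ hKA))
  -- it is abelian
  have hAsol : Group.IsSolvable A :=
    Group.isSolvable_of_isSolvable_injective (Subgroup.inclusion_injective hAL)
  have hcomm : ∀ a ∈ A, ∀ b ∈ A, a * b = b * a := by
    have h1 : (⁅A, A⁆ : Subgroup G) = ⊥ := by
      rcases hmin' ⁅A, A⁆ inferInstance (Subgroup.commutator_le_left A A) with h | h
      · exact h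
      · exfalso
        have : Nontrivial A := (Subgroup.nontrivial_iff_ne_bot A).2 hA1
        have h2 := Group.IsSolvable.commutator_lt_top_of_nontrivial A
        apply h2.ne
        have h3 : (commutator A).map A.subtype = A := by
          rw [commutator_def, Subgroup.map_commutator, ← MonoidHom.range_eq_map, Subgroup.range_subtype, h]
        rw [eq_top_iff]
        intro z _
        have h4 : (z : G) ∈ (commutator A).map A.subtype := by rw [h3]; exact z.2
        obtain ⟨w, hw, hwz⟩ := h4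
        have : w = z := Subtype.ext hwz
        rw [← this]
        exact hw
    rw [Subgroup.commutator_eq_bot_iff_le_centralizer] at h1
    intro a ha b hb
    exact (Subgroup.mem_centralizer_iff.mp (h1 hb) a ha)
  obtain ⟨s, hs, hexp⟩ := SolvableStructure.MinimalNormal.exists_prime_pow_eq_one A hA1 hmin' hcomm
  -- the quotient
  have Sq := S.quot hAL
  have hlt : Nat.card (G ⧸ A) < k := by
    rw [← hk, ← A.card_mul_index]
    have h1 : 1 < Nat.card A := by
      have h1 : Nat.card A ≠ 0 := Nat.card_pos.ne'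
      have h3 : Nat.card A ≠ 1 := fun h => hA1 (Subgroup.card_eq_one.1 h)
      omega
    exact lt_mul_of_one_lt_left (Nat.pos_of_ne_zero Subgroup.index_ne_zero_of_finite) h1
  have hsolq : Group.IsSolvable (L.map (QuotientGroup.mk' A)) :=
    Group.isSolvable_of_surjective ((QuotientGroup.mk' A).subgroupMap_surjective L)
  have hLq := ih _ hlt rfl Sq hsolq
  have hLc := Sq.le_cent hLq
  have hLP : ∀ l ∈ L, ∀ y ∈ P, y * l * y⁻¹ * l⁻¹ ∈ A := by
    intro l hl y hy
    have h1 := mem_cent.1 (hLc ⟨l, hl, rfl⟩) (QuotientGroup.mk' A y) ⟨y, hy, rfl⟩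
    rw [← QuotientGroup.eq_one_iff, ← QuotientGroup.mk'_apply, map_mul, map_mul, map_mul, h1]
    simp
  by_cases hsq : s = q
  · subst hsq
    intro l
    obtain ⟨e, he⟩ := hLq ⟨QuotientGroup.mk' A l, l, l.2, rfl⟩
    have h1 : (QuotientGroup.mk' A ((l : G) ^ s ^ e)) = 1 := by
      rw [map_pow]
      exact congrArg Subtype.val he
    rw [QuotientGroup.mk'_apply, QuotientGroup.eq_one_iff] at h1
    refine ⟨e + 1, Subtype.ext ?_⟩
    show (l : G) ^ s ^ (e + 1) = 1
    rw [pow_succ, pow_mul]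
    exact hexp _ h1
  · exact (S.false_of_prime hAL hA1 hs hsq hexp hcomm hLP).elim

theorem Setup.isPGroup_L (S : Setup p q P N L) [Fact p.Prime] (hL : Group.IsSolvable L) : IsPGroup q L :=
  isPGroup_L_aux _ rfl S hL

end Cfsg.Agent.H527.OC
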