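import Mathlib
import Cfsg.Agent.H527.OneClassD
import Cfsg.Agent.H527.OneClassE

/-!
# S4164: construction of the set up (helper527)

* `exists_setup` : if exactly one class size is divisible by `p`, `N_G(P) = C_G(P)`, then there is a `Setup`.
-/

set_option autoImplicit false
set_option linter.unusedSectionVars false

namespace Cfsg.Agent.H527.OC

open Subgroup
open scoped Pointwise

universe u

variable {G : Type u} [Group G] [Finite G] {p : ℕ} [Fact p.Prime]

theorem exists_setup (P : Sylow p G) {x : G} (h : OneCl (P : Subgroup G) x)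
    (hNC : normalizer ((P : Subgroup G) : Set G) ≤ centralizer ((P : Subgroup G) : Set G))
    (hrow : ∀ (T : Type u) [Group T] [Finite T] [IsSimpleGroup T], (¬ ∀ a b : T, a * b = b * a) → NRow p T)
    (hsolv : ∀ (L : Subgroup G) [L.Normal], (∀ l ∈ L, ∃ y : G, y * x * y⁻¹ = x * l) → Group.IsSolvable L) :
    ∃ (q : ℕ) (N L : Subgroup G), Setup p q (P : Subgroup G) N L ∧ Group.IsSolvable L := by
  classical
  have hp : p.Prime := Fact.out
  set C := centralizer ((P : Subgroup G) : Set G) with hC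
  have hx1 := ne_one_of_bad h
  have hPC : (P : Subgroup G) ≤ C := (Subgroup.le_normalizer).trans hNC
  have hxC : x ∉ C := fun hx => h.bad ⟨1, by rw [one_mul, inv_one, mul_one]; exact hx⟩
  -- the normal complement
  obtain ⟨M, hMn, hMc, hpM⟩ : ∃ M : Subgroup G, M.Normal ∧ IsComplement' M (P : Subgroup G) ∧ ¬ p ∣ Nat.card M :=
    ⟨(MonoidHom.transferSylow P hNC).ker, inferInstance, MonoidHom.ker_transferSylow_isComplement' P hNC,
      MonoidHom.not_dvd_card_ker_transferSylow P hNC⟩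
  have hMP : ∀ g : G, ∃ c ∈ (P : Subgroup G), ∃ m ∈ M, c * m = g := by
    intro g
    obtain ⟨⟨m, c⟩, hmc⟩ := (isComplement'_def.1 hMc).2 g⁻¹
    refine ⟨(c : G)⁻¹, inv_mem c.2, (m : G)⁻¹, inv_mem m.2, ?_⟩
    have h1 : (m : G) * c = g⁻¹ := hmc
    rw [← mul_inv_rev, h1, inv_inv]
  have hxM : x ∈ M := by
    by_contra hxM
    have hcov : ∀ m ∈ M, Cov (P : Subgroup G) m := by
      intro m hm
      by_contra hc
      obtain ⟨k, rfl⟩ := h.good m hc
      apply hxM
      have := hMn.conj_mem _ hm k⁻¹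
      rwa [show k⁻¹ * (k * x * k⁻¹) * k⁻¹⁻¹ = x by group] at this
    have hle : M ≤ C := by
      by_contra hne
      have h1 : C.subgroupOf M ≠ ⊤ := fun h1 => hne (Subgroup.subgroupOf_eq_top.1 h1)
      obtain ⟨m, hm⟩ := H395.Jordan.exists_not_conj_mem h1
      obtain ⟨k, hk⟩ := hcov m m.2
      obtain ⟨c, hc, m', hm', rfl⟩ := hMP k
      apply hm ⟨m', hm'⟩⁻¹
      rw [Subgroup.mem_subgroupOf, inv_inv]
      show m' * (m : G) * m'⁻¹ ∈ C
      have h2 : m' * (m : G) * m'⁻¹ = c⁻¹ * (c * m' * m * (c * m')⁻¹) * c := by group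
      rw [h2]
      exact mul_mem (mul_mem (inv_mem (hPC hc)) hk) (hPC hc)
    obtain ⟨c, hc, m, hm, hcm⟩ := hMP x
    apply hxC
    rw [← hcm]
    exact mul_mem (hPC hc) (hle hm)
  -- the normal closure of `x`
  set N := normalClosure ({x} : Set G) with hN
  have hNn : N.Normal := Subgroup.normalClosure_normal
  have hxN : x ∈ N := Subgroup.subset_normalClosure rfl
  have hNle : ∀ {K : Subgroup G}, K.Normal → x ∈ K → N ≤ K := by
    intro K hK hxK
    exact Subgroup.normalClosure_le_normal (by simpa using hxK)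
  have hNM : N ≤ M := hNle hMn hxM
  have hpN : ¬ p ∣ Nat.card N := fun h1 => hpM (h1.trans (Subgroup.card_dvd_of_le hNM))
  have hsup : ∀ g : G, ∃ n ∈ N, ∃ c ∈ C, n * c = g := by
    intro g
    have h1 : g ∈ N ⊔ C := by rw [sup_eq_top h hxN]; trivial
    exact Subgroup.mem_sup_of_normal_left.1 h1
  have hsup' : ∀ g : G, ∃ c ∈ C, ∃ n ∈ N, c * n = g := by
    intro g
    obtain ⟨n, hn, c, hc, h1⟩ := hsup g⁻¹
    exact ⟨c⁻¹, inv_mem hc, n⁻¹, inv_mem hn, by rw [← mul_inv_rev, h1, inv_inv]⟩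
  have hcovN : ∀ g : G, Cov (P : Subgroup G) g → ∃ n ∈ N, n * g * n⁻¹ ∈ C := by
    rintro g ⟨k, hk⟩
    obtain ⟨c, hc, n, hn, rfl⟩ := hsup' k
    refine ⟨n, hn, ?_⟩
    have h2 : n * g * n⁻¹ = c⁻¹ * (c * n * g * (c * n)⁻¹) * c := by group
    rw [h2]
    exact mul_mem (mul_mem (inv_mem hc) hk) hc
  -- `L`
  obtain ⟨L, ⟨hLn, hLN⟩, hLmax⟩ : ∃ L : Subgroup G, (L.Normal ∧ L < N) ∧
      ∀ B : Subgroup G, (B.Normal ∧ B < N) → L ≤ B → B ≤ L := by
    obtain ⟨A, hA⟩ := (Set.toFinite {A : Subgroup G | A.Normal ∧ A < N}).exists_maximal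
      ⟨⊥, inferInstance, by
        rw [bot_lt_iff_ne_bot]
        intro h1
        rw [h1, Subgroup.mem_bot] at hxN
        exact hx1 hxN⟩
    exact ⟨A, hA.1, fun B hB hBA => hA.2 hB hBA⟩
  have hxL : x ∉ L := fun hx => absurd hLN (not_lt_of_ge (hNle hLn hx))
  have hcovL : ∀ l ∈ L, Cov (P : Subgroup G) l := by
    intro l hl
    by_contra hc
    obtain ⟨k, rfl⟩ := h.good l hc
    apply hxL
    have := hLn.conj_mem _ hl k⁻¹
    rwa [show k⁻¹ * (k * x * k⁻¹) * k⁻¹⁻¹ = x by group] at this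
  have hbetween : ∀ K : Subgroup G, K.Normal → L ≤ K → K ≤ N → K = L ∨ K = N := by
    intro K hK hLK hKN
    by_cases h1 : K = N
    · exact Or.inr h1
    · exact Or.inl (le_antisymm (hLmax K ⟨hK, lt_of_le_of_ne hKN h1⟩ hLK) hLK)
  have hne : L ⊔ (N ⊓ C) ≠ N := by
    intro heq
    have h1 : ∀ n ∈ N, ∃ c ∈ N ⊓ C, ∃ l ∈ L, c * l = n := by
      intro n hn
      have h2 : n⁻¹ ∈ L ⊔ (N ⊓ C) := by rw [heq]; exact inv_mem hn
      obtain ⟨l, hl, c, hc, h3⟩ := Subgroup.mem_sup_of_normal_left.1 h2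
      exact ⟨c⁻¹, inv_mem hc, l⁻¹, inv_mem hl, by rw [← mul_inv_rev, h3, inv_inv]⟩
    have hle : L ≤ C := by
      by_contra hne
      have h2 : C.subgroupOf L ≠ ⊤ := fun h1 => hne (Subgroup.subgroupOf_eq_top.1 h1)
      obtain ⟨m, hm⟩ := H395.Jordan.exists_not_conj_mem h2
      obtain ⟨n, hn, hk⟩ := hcovN m (hcovL m m.2)
      obtain ⟨c, hc, m', hm', rfl⟩ := h1 n hn
      have hcC := (Subgroup.mem_inf.1 hc).2
      apply hm ⟨m', hm'⟩⁻¹
      rw [Subgroup.mem_subgroupOf, inv_inv]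
      show m' * (m : G) * m'⁻¹ ∈ C
      have h2 : m' * (m : G) * m'⁻¹ = c⁻¹ * (c * m' * m * (c * m')⁻¹) * c := by group
      rw [h2]
      exact mul_mem (mul_mem (inv_mem hcC) hk) hcC
    have h2 : N ≤ C := by
      rw [← heq]
      exact sup_le hle inf_le_right
    exact hxC (h2 hxN)
  have hmN : ∀ g, QuotientGroup.mk' L g ∈ N.map (QuotientGroup.mk' L) ↔ g ∈ N := mem_map_mk hLN.le
  have hcP : ∀ c ∈ C, QuotientGroup.mk' L c ∈
      centralizer (((P : Subgroup G).map (QuotientGroup.mk' L) : Subgroup (G ⧸ L)) : Set (G ⧸ L)) := by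
    intro c hc
    rw [mem_cent]
    rintro _ ⟨y, hy, rfl⟩
    rw [← map_mul, ← map_mul, mem_cent.1 hc y hy]
  have hcopL : (Nat.card L).Coprime p := by
    rw [Nat.coprime_comm, Nat.Prime.coprime_iff_not_dvd hp]
    exact fun h1 => hpN (h1.trans (Subgroup.card_dvd_of_le hLN.le))
  -- the chief factor is abelian
  have habel : ∀ a ∈ N, ∀ b ∈ N, a * b * a⁻¹ * b⁻¹ ∈ L := by
    by_contra hna
    have hVn : (N.map (QuotientGroup.mk' L)).Normal := hNn.map _ (QuotientGroup.mk'_surjective L)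
    refine lemE (p := p) (N.map (QuotientGroup.mk' L)) ((P : Subgroup G).map (QuotientGroup.mk' L)) ?_ ?_ ?_
      (P.2.map _) (fun h1 => hpN (h1.trans (Subgroup.card_map_dvd _ _))) ?_ ?_ ?_ ?_
    · intro h1
      have h2 : QuotientGroup.mk' L x ∈ N.map (QuotientGroup.mk' L) := ⟨x, hxN, rfl⟩
      rw [h1, Subgroup.mem_bot, QuotientGroup.mk'_apply, QuotientGroup.eq_one_iff] at h2
      exact hxL h2
    · intro K hK hKV
      have h1 : K = (K.comap (QuotientGroup.mk' L)).map (QuotientGroup.mk' L) :=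
        (Subgroup.map_comap_eq_self_of_surjective (QuotientGroup.mk'_surjective L) K).symm
      have h2 : L ≤ K.comap (QuotientGroup.mk' L) := by
        intro l hl
        rw [Subgroup.mem_comap, QuotientGroup.mk'_apply, (QuotientGroup.eq_one_iff l).2 hl]
        exact one_mem _
      have h3 : K.comap (QuotientGroup.mk' L) ≤ N := by
        intro g hg
        exact (hmN g).1 (hKV (Subgroup.mem_comap.1 hg))
      rcases hbetween _ (hK.comap _) h2 h3 with h4 | h4
      · left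
        rw [h1, h4, QuotientGroup.map_mk'_self]
      · right
        rw [h1, h4]
    · intro hcomm
      apply hna
      intro a ha b hb
      have h1 := hcomm _ ((hmN a).2 ha) _ ((hmN b).2 hb)
      rw [← QuotientGroup.eq_one_iff, ← QuotientGroup.mk'_apply, map_mul, map_mul, map_mul, h1]
      simp
    · intro g
      obtain ⟨g, rfl⟩ := QuotientGroup.mk'_surjective L g
      obtain ⟨n, hn, c, hc, rfl⟩ := hsup g
      exact ⟨_, (hmN n).2 hn, _, hcP c hc, (map_mul _ _ _).symm⟩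
    · intro hle
      apply hne
      apply le_antisymm (sup_le hLN.le inf_le_left)
      intro n hn
      have h1 := hle ((hmN n).2 hn)
      obtain ⟨a, ha, hac⟩ := PLocal.CoprimeLift.exists_commuting_lift L (P : Subgroup G) hcopL P.2 n (by
        intro y hy
        have h2 := mem_cent.1 h1 (QuotientGroup.mk' L y) ⟨y, hy, rfl⟩
        rw [← QuotientGroup.eq_one_iff, ← QuotientGroup.mk'_apply, map_mul, map_mul, map_mul, h2]
        simp)
      have h3 : n = a⁻¹ * (a * n) := by group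
      rw [h3]
      exact mul_mem (Subgroup.mem_sup_left (inv_mem ha)) (Subgroup.mem_sup_right
        (Subgroup.mem_inf.2 ⟨mul_mem (hLN.le ha) hn, mem_cent.2 hac⟩))
    · have key : ∀ a ∈ N.map (QuotientGroup.mk' L), (∀ n ∈ N.map (QuotientGroup.mk' L), n * a * n⁻¹ ∉
          centralizer (((P : Subgroup G).map (QuotientGroup.mk' L) : Subgroup (G ⧸ L)) : Set (G ⧸ L))) →
          orderOf a = orderOf (QuotientGroup.mk' L x) := by
        rintro _ ⟨a, ha, rfl⟩ hbad
        have h1 : ¬ Cov (P : Subgroup G) a := by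
          intro hc
          obtain ⟨n, hn, hnc⟩ := hcovN a hc
          apply hbad _ ((hmN n).2 hn)
          rw [← map_inv, ← map_mul, ← map_mul]
          exact hcP _ hnc
        obtain ⟨k, rfl⟩ := h.good a h1
        rw [map_mul, map_mul, map_inv]
        exact MulEquiv.orderOf_eq (MulAut.conj (QuotientGroup.mk' L k)) (QuotientGroup.mk' L x)
      intro a ha b hb h1 h2
      rw [key a ha h1, key b hb h2]
    · intro T hT hTna
      have := hT
      exact hrow T hTna
  -- `C_N(P) ≤ L`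
  have hcent : N ⊓ C ≤ L := by
    have h1 : (L ⊔ (N ⊓ C)).Normal := by
      refine ⟨fun z hz g => ?_⟩
      obtain ⟨l, hl, c, hc, rfl⟩ := Subgroup.mem_sup_of_normal_left.1 hz
      obtain ⟨hcN, hcC⟩ := Subgroup.mem_inf.1 hc
      obtain ⟨n, hn, d, hd, rfl⟩ := hsup g
      have h2 : n * d * (l * c) * (n * d)⁻¹ = (n * d * l * (n * d)⁻¹) * (n * (d * c * d⁻¹) * n⁻¹) := by group
      rw [h2]
      have h3 : d * c * d⁻¹ ∈ N ⊓ C := Subgroup.mem_inf.2 ⟨hNn.conj_mem _ hcN _, mul_mem (mul_mem hd hcC) (inv_mem hd)⟩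
      have h4 : n * (d * c * d⁻¹) * n⁻¹ = (n * (d * c * d⁻¹) * n⁻¹ * (d * c * d⁻¹)⁻¹) * (d * c * d⁻¹) := by group
      rw [h4]
      refine mul_mem (Subgroup.mem_sup_left (hLn.conj_mem _ hl _)) (mul_mem (Subgroup.mem_sup_left ?_)
        (Subgroup.mem_sup_right h3))
      exact habel n hn _ (Subgroup.mem_inf.1 h3).1
    rcases hbetween _ h1 le_sup_left (sup_le hLN.le inf_le_left) with h2 | h2
    · rw [← h2]; exact le_sup_right
    · exact absurd h2 hne
  -- elements of `N ∖ L` are bad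
  have hbad : ∀ g ∈ N, g ∉ L → ¬ Cov (P : Subgroup G) g := by
    intro g hg hgL hc
    obtain ⟨n, hn, hnc⟩ := hcovN g hc
    have h1 := hcent (Subgroup.mem_inf.2 ⟨hNn.conj_mem _ hg n, hnc⟩)
    have h2 := hLn.conj_mem _ h1 n⁻¹
    rw [show n⁻¹ * (n * g * n⁻¹) * n⁻¹⁻¹ = g by group] at h2
    exact hgL h2
  -- the exponent
  obtain ⟨q, hq, hqexp⟩ : ∃ q : ℕ, q.Prime ∧ ∀ a ∈ N, a ^ q ∈ L := by
    have hcard : Nat.card (N.map (QuotientGroup.mk' L)) ≠ 1 := by
      intro h1
      have h2 := Subgroup.card_eq_one.1 h1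
      have h3 : QuotientGroup.mk' L x ∈ N.map (QuotientGroup.mk' L) := ⟨x, hxN, rfl⟩
      rw [h2, Subgroup.mem_bot, QuotientGroup.mk'_apply, QuotientGroup.eq_one_iff] at h3
      exact hxL h3
    obtain ⟨q, hq, hqd⟩ := Nat.exists_prime_and_dvd hcard
    refine ⟨q, hq, ?_⟩
    have : Fact q.Prime := ⟨hq⟩
    obtain ⟨z, hyo⟩ := exists_prime_orderOf_dvd_card' q hqd
    obtain ⟨y, hy, hyz⟩ := z.2
    rw [← Subgroup.orderOf_coe, ← hyz] at hyo
    have hcommq : ∀ a ∈ N, ∀ b ∈ N, QuotientGroup.mk' L a * QuotientGroup.mk' L b =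
        QuotientGroup.mk' L b * QuotientGroup.mk' L a := by
      intro a ha b hb
      have h1 := habel a ha b hb
      rw [← QuotientGroup.eq_one_iff, ← QuotientGroup.mk'_apply, map_mul, map_mul, map_mul, map_inv, map_inv,
        mul_inv_eq_one, mul_inv_eq_iff_eq_mul] at h1
      exact h1
    let K : Subgroup G :=
      { carrier := {a | a ∈ N ∧ a ^ q ∈ L}
        one_mem' := ⟨one_mem _, by rw [one_pow]; exact one_mem _⟩
        mul_mem' := by
          rintro a b ⟨ha, ha'⟩ ⟨hb, hb'⟩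
          refine ⟨mul_mem ha hb, ?_⟩
          rw [← QuotientGroup.eq_one_iff, ← QuotientGroup.mk'_apply] at ha' hb' ⊢
          rw [map_pow] at ha' hb' ⊢
          rw [map_mul, (show Commute _ _ from hcommq a ha b hb).mul_pow, ha', hb', one_mul]
        inv_mem' := by
          rintro a ⟨ha, ha'⟩
          exact ⟨inv_mem ha, by rw [inv_pow]; exact inv_mem ha'⟩ }
    have hKn : K.Normal := by
      refine ⟨fun a ha g => ⟨hNn.conj_mem _ ha.1 g, ?_⟩⟩
      rw [conj_pow]
      exact hLn.conj_mem _ ha.2 g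
    have hLK : L ≤ K := fun l hl => ⟨hLN.le hl, pow_mem hl q⟩
    rcases hbetween K hKn hLK (fun a ha => ha.1) with h1 | h1
    · exfalso
      have h2 : y ∈ K := by
        refine ⟨hy, ?_⟩
        rw [← QuotientGroup.eq_one_iff, ← QuotientGroup.mk'_apply, map_pow, ← hyo, pow_orderOf_eq_one]
      rw [h1] at h2
      have h3 : QuotientGroup.mk' L y = 1 := (QuotientGroup.eq_one_iff y).2 h2
      rw [h3, orderOf_one] at hyo
      exact hq.one_lt.ne hyo
    · intro a ha
      rw [← h1] at ha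
      exact ha.2
  refine ⟨q, N, L, ?_, ?_⟩
  · exact
    { primeq := hq
      normN := hNn
      normL := hLn
      lt := hLN
      pP := P.2
      pN := hpN
      sup := hsup
      cov := by
        intro g hg
        apply hcovN
        by_contra hc
        apply hg
        obtain ⟨k, rfl⟩ := h.good g hc
        refine ⟨hNn.conj_mem _ hxN k, fun h1 => hxL ?_⟩
        have := hLn.conj_mem _ h1 k⁻¹
        rwa [show k⁻¹ * (k * x * k⁻¹) * k⁻¹⁻¹ = x by group] at this
      cent := fun g hg hgC => hcent (Subgroup.mem_inf.2 ⟨hg, hgC⟩)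
      conj := by
        intro a ha haL b hb hbL
        obtain ⟨k, rfl⟩ := h.good a (hbad a ha haL)
        obtain ⟨j, rfl⟩ := h.good b (hbad b hb hbL)
        exact ⟨j * k⁻¹, by group⟩
      abel := habel
      exp := hqexp }
  · apply hsolv L
    intro l hl
    apply h.good
    apply hbad _ (mul_mem hxN (hLN.le hl))
    intro h1
    exact hxL ((Subgroup.mul_mem_cancel_right _ hl).1 h1)

end Cfsg.Agent.H527.OC
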