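import Mathlib
import Cfsg.Agent.OddHalf.NI.QuatDim

/-!
# S4164: invariant alternating maps (helper527)

* `lemLA` : `V`, `Z` elementary abelian `q`-groups, `q` odd, `c : V × V → Z` alternating with `c u V = Z` for `u ≠ 0`,
  `P` an abelian group of automorphisms of `V` preserving `c`, whose centraliser in `End V` is transitive on `V ∖ 0`:
  then `|V| = q ^ n` with `n` even and `|P| ∣ q ^ i + 1` for some `i`.
-/

set_option autoImplicit false
set_option linter.unusedSectionVars false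
set_option linter.deprecated false

namespace Cfsg.Agent.H527.OC

open Module

theorem lemLA {V Z P : Type*} [AddCommGroup V] [AddCommGroup Z] [Finite V] [Finite Z] {q : ℕ} [Fact q.Prime]
    (hq2 : q ≠ 2) [Module (ZMod q) V] [Module (ZMod q) Z]
    (c : V →ₗ[ZMod q] V →ₗ[ZMod q] Z) (halt : ∀ v, c v v = 0) (hsurj : ∀ u : V, u ≠ 0 → ∀ z, ∃ v, c u v = z)
    (hZ : ∃ z : Z, z ≠ 0) (hV : ∃ v : V, v ≠ 0) [CommGroup P] [Finite P] (φ : P →* Module.End (ZMod q) V)
    (hφ : Function.Injective φ) (hc : ∀ y u v, c (φ y u) (φ y v) = c u v)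
    (htrans : ∀ u v : V, u ≠ 0 → v ≠ 0 → ∃ h : Module.End (ZMod q) V, h u = v ∧ ∀ y, h * φ y = φ y * h) :
    ∃ n i : ℕ, Nat.card V = q ^ n ∧ Even n ∧ Nat.card P ∣ q ^ i + 1 := by
  classical
  have hqp : q.Prime := Fact.out
  obtain ⟨z0, hz0⟩ := hZ
  obtain ⟨v0, hv0⟩ := hV
  have : Module.Finite (ZMod q) V := Module.Finite.of_finite
  have : Module.Finite (ZMod q) Z := Module.Finite.of_finite
  have hskew : ∀ u v, c u v = - c v u := by
    intro u v
    have h1 := halt (u + v)
    rw [map_add, map_add, LinearMap.add_apply, LinearMap.add_apply, halt, halt, zero_add, add_zero] at h1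
    exact eq_neg_of_add_eq_zero_left ((add_comm _ _).trans h1)
  have hnd : ∀ w : V, (∀ u, c u w = 0) → w = 0 := by
    intro w hw
    by_contra h0
    obtain ⟨v, hv⟩ := hsurj w h0 z0
    rw [hskew, hw, neg_zero] at hv
    exact hz0 hv.symm
  -- the dimension
  have heven : Even (finrank (ZMod q) V) := by
    obtain ⟨ψ, hψ⟩ : ∃ ψ : Dual (ZMod q) Z, ψ z0 ≠ 0 := by
      by_contra hcon
      push Not at hcon
      exact hz0 ((Module.forall_dual_apply_eq_zero_iff (ZMod q) z0).1 hcon)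
    have h2 : (2 : ZMod q) ≠ 0 := by
      intro h
      have h1 : ((2 : ℕ) : ZMod q) = 0 := by exact_mod_cast h
      rw [ZMod.natCast_eq_zero_iff] at h1
      exact hq2 ((Nat.prime_dvd_prime_iff_eq hqp Nat.prime_two).1 h1)
    refine OddHalf.NI.QuatDim.even_of_skew h2 (c.compr₂ ψ) ?_ ?_
    · intro v w
      rw [LinearMap.compr₂_apply, LinearMap.compr₂_apply, hskew, map_neg]
    · intro v hv
      by_contra h0
      obtain ⟨w, hw⟩ := hsurj v h0 z0
      have := hv w
      rw [LinearMap.compr₂_apply, hw] at this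
      exact hψ this
  -- the ring generated by `P`
  let A := Algebra.adjoin (ZMod q) (Set.range φ)
  have hcomm : ∀ a ∈ Set.range φ, ∀ b ∈ Set.range φ, a * b = b * a := by
    rintro _ ⟨a, rfl⟩ _ ⟨b, rfl⟩
    rw [← map_mul, ← map_mul, mul_comm]
  let hCR : CommRing A := Algebra.adjoinCommRingOfComm (ZMod q) hcomm
  have hAh : ∀ r ∈ A, ∀ h : Module.End (ZMod q) V, (∀ y, h * φ y = φ y * h) → h * r = r * h := by
    intro r hr h hh
    induction hr using Algebra.adjoin_induction with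
    | mem x hx =>
      obtain ⟨y, rfl⟩ := hx
      exact hh y
    | algebraMap k => exact (Algebra.commutes k h).symm
    | add x y _ _ hx hy => rw [mul_add, add_mul, hx, hy]
    | mul x y _ _ hx hy => rw [← mul_assoc, hx, mul_assoc, hy, mul_assoc]
  have hAinj : ∀ r ∈ A, ∀ u : V, u ≠ 0 → r u = 0 → r = 0 := by
    intro r hr u hu hru
    apply LinearMap.ext
    intro v
    by_cases hv : v = 0
    · rw [hv, map_zero, map_zero]
    obtain ⟨h, hhu, hhc⟩ := htrans u v hu hv
    have h1 := hAh r hr h hhc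
    rw [← hhu, ← Module.End.mul_apply, ← h1, Module.End.mul_apply, hru, map_zero]
    rfl
  have hdom : NoZeroDivisors A := by
    refine ⟨fun {r s} hrs => ?_⟩
    by_contra hcon
    push Not at hcon
    obtain ⟨hr, hs⟩ := hcon
    obtain ⟨u, hu⟩ : ∃ u, (s : Module.End (ZMod q) V) u ≠ 0 := by
      by_contra hcon
      push Not at hcon
      exact hs (Subtype.ext (LinearMap.ext hcon))
    apply hr
    apply Subtype.ext
    refine hAinj r r.2 _ hu ?_
    have h1 : (r : Module.End (ZMod q) V) * (s : Module.End (ZMod q) V) = 0 := congrArg Subtype.val hrs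
    rw [← Module.End.mul_apply, h1, LinearMap.zero_apply]
  have hnt : Nontrivial A := by
    refine ⟨0, 1, fun h => hv0 ?_⟩
    have h1 : (0 : Module.End (ZMod q) V) = 1 := congrArg Subtype.val h
    have h2 := congrArg (fun f : Module.End (ZMod q) V => f v0) h1
    exact h2.symm
  have hID : IsDomain A := NoZeroDivisors.to_isDomain A
  have hfinE : Finite (Module.End (ZMod q) V) := Module.finite_of_finite (ZMod q)
  have hfinA : Finite A := inferInstance
  let hfld : Field A := (Finite.isField_of_domain A).toField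
  -- the adjoint
  have hadj : ∀ r ∈ A, ∃ s ∈ A, ∀ u v, c (r u) v = c u (s v) := by
    intro r hr
    induction hr using Algebra.adjoin_induction with
    | mem x hx =>
      obtain ⟨y, rfl⟩ := hx
      refine ⟨φ y⁻¹, Algebra.subset_adjoin ⟨y⁻¹, rfl⟩, fun u v => ?_⟩
      rw [← hc y u, ← Module.End.mul_apply, ← map_mul, mul_inv_cancel, map_one, Module.End.one_apply]
    | algebraMap k =>
      refine ⟨algebraMap _ _ k, Subalgebra.algebraMap_mem _ k, fun u v => ?_⟩
      rw [Module.algebraMap_end_apply, Module.algebraMap_end_apply, map_smul, map_smul, LinearMap.smul_apply]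
    | add x y _ _ hx hy =>
      obtain ⟨s, hs, h1⟩ := hx
      obtain ⟨t, ht, h2⟩ := hy
      refine ⟨s + t, add_mem hs ht, fun u v => ?_⟩
      rw [LinearMap.add_apply, map_add, LinearMap.add_apply, h1, h2, LinearMap.add_apply, map_add]
    | mul x y _ _ hx hy =>
      obtain ⟨s, hs, h1⟩ := hx
      obtain ⟨t, ht, h2⟩ := hy
      refine ⟨t * s, mul_mem ht hs, fun u v => ?_⟩
      rw [Module.End.mul_apply, Module.End.mul_apply, h1, h2]
  have huniq : ∀ s ∈ A, ∀ t ∈ A, (∀ u v, c u (s v) = c u (t v)) → s = t := by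
    intro s _ t _ h
    apply LinearMap.ext
    intro v
    rw [← sub_eq_zero]
    apply hnd
    intro u
    rw [map_sub, h, sub_self]
  choose! σ₀ hσA hσ using hadj
  let σ : A →ₐ[ZMod q] A :=
    { toFun := fun r => ⟨σ₀ r, hσA r r.2⟩
      map_one' := by
        apply Subtype.ext
        refine huniq _ (hσA _ (1 : A).2) _ (1 : A).2 fun u v => ?_
        rw [← hσ _ (1 : A).2]
        rfl
      map_mul' := fun r s => by
        apply Subtype.ext
        refine huniq _ (hσA _ (r * s).2) _ (mul_mem (hσA r r.2) (hσA s s.2)) fun u v => ?_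
        rw [← hσ _ (r * s).2]
        have h1 : ((r * s : A) : Module.End (ZMod q) V) = (s : Module.End (ZMod q) V) * (r : Module.End (ZMod q) V) := by
          rw [mul_comm r s]; rfl
        rw [h1]
        show c ((s : Module.End (ZMod q) V) ((r : Module.End (ZMod q) V) u)) v = c u (σ₀ r (σ₀ s v))
        rw [hσ s s.2, hσ r r.2]
      map_zero' := by
        apply Subtype.ext
        refine huniq _ (hσA _ (0 : A).2) _ (0 : A).2 fun u v => ?_
        rw [← hσ _ (0 : A).2]
        show c ((0 : Module.End (ZMod q) V) u) v = c u ((0 : Module.End (ZMod q) V) v)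
        rw [LinearMap.zero_apply, LinearMap.zero_apply, map_zero, map_zero, LinearMap.zero_apply]
      map_add' := fun r s => by
        apply Subtype.ext
        refine huniq _ (hσA _ (r + s).2) _ (add_mem (hσA r r.2) (hσA s s.2)) fun u v => ?_
        rw [← hσ _ (r + s).2]
        show c ((r : Module.End (ZMod q) V) u + (s : Module.End (ZMod q) V) u) v = c u (σ₀ r v + σ₀ s v)
        rw [map_add, LinearMap.add_apply, hσ r r.2, hσ s s.2, map_add]
      commutes' := fun k => by
        apply Subtype.ext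
        refine huniq _ (hσA _ (algebraMap (ZMod q) A k).2) _ (algebraMap (ZMod q) A k).2 fun u v => ?_
        rw [← hσ _ (algebraMap (ZMod q) A k).2]
        show c ((algebraMap (ZMod q) (Module.End (ZMod q) V) k) u) v =
          c u ((algebraMap (ZMod q) (Module.End (ZMod q) V) k) v)
        rw [Module.algebraMap_end_apply, Module.algebraMap_end_apply, map_smul, map_smul, LinearMap.smul_apply] }
  obtain ⟨i, hi⟩ := (FiniteField.bijective_frobeniusAlgHom_pow (ZMod q) A).2 σ
  have hi' : ∀ r : A, σ r = r ^ q ^ (i : ℕ) := by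
    intro r
    rw [← hi]
    show (FiniteField.frobeniusAlgHom (ZMod q) A ^ (i : ℕ)) r = _
    rw [AlgHom.coe_pow, FiniteField.coe_frobeniusAlgHom, pow_iterate, ZMod.card]
  -- `P` in `A`
  let φ' : P →* A :=
    { toFun := fun y => ⟨φ y, Algebra.subset_adjoin ⟨y, rfl⟩⟩
      map_one' := Subtype.ext (map_one φ)
      map_mul' := fun a b => Subtype.ext (map_mul φ a b) }
  have hφ' : Function.Injective φ' := fun a b hab => hφ (congrArg Subtype.val hab)
  have hσφ : ∀ y : P, σ (φ' y) = φ' y⁻¹ := by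
    intro y
    apply Subtype.ext
    refine huniq _ (hσA _ (φ' y).2) _ (φ' y⁻¹).2 fun u v => ?_
    rw [← hσ _ (φ' y).2]
    show c (φ y u) v = c u (φ y⁻¹ v)
    rw [← hc y u, ← Module.End.mul_apply, ← map_mul, mul_inv_cancel, map_one, Module.End.one_apply]
  have hpow : ∀ y : P, y ^ (q ^ (i : ℕ) + 1) = 1 := by
    intro y
    apply hφ'
    rw [map_pow, map_one, pow_succ, ← hi', hσφ, ← map_mul, inv_mul_cancel, map_one]
  have hcyc : IsCyclic P := isCyclic_of_injective_ringHom φ' hφ'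
  obtain ⟨g, hg⟩ := IsCyclic.exists_ofOrder_eq_natCard (α := P)
  refine ⟨finrank (ZMod q) V, i, ?_, heven, ?_⟩
  · rw [Module.natCard_eq_pow_finrank (K := ZMod q) (V := V), Nat.card_zmod]
  · rw [← hg]
    exact orderOf_dvd_of_pow_eq_one (hpow g)

/-- Multiplicative form. -/
theorem lemLA' {V Z P : Type*} [CommGroup V] [CommGroup Z] [Finite V] [Finite Z] {q : ℕ} [Fact q.Prime]
    (hq2 : q ≠ 2) (hV : ∀ v : V, v ^ q = 1) (hZ : ∀ z : Z, z ^ q = 1) (c : V → V → Z)
    (hc1 : ∀ u u' v, c (u * u') v = c u v * c u' v) (hc2 : ∀ u v v', c u (v * v') = c u v * c u v')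
    (halt : ∀ v, c v v = 1) (hsurj : ∀ u : V, u ≠ 1 → ∀ z, ∃ v, c u v = z)
    (hZ1 : ∃ z : Z, z ≠ 1) (hV1 : ∃ v : V, v ≠ 1) [CommGroup P] [Finite P] (φ : P →* MulAut V)
    (hφ : Function.Injective φ) (hc : ∀ y u v, c (φ y u) (φ y v) = c u v)
    (htrans : ∀ u v : V, u ≠ 1 → v ≠ 1 → ∃ h : V →* V, h u = v ∧ ∀ y w, h (φ y w) = φ y (h w)) :
    ∃ n i : ℕ, Nat.card V = q ^ n ∧ Even n ∧ Nat.card P ∣ q ^ i + 1 := by
  let _ : Module (ZMod q) (Additive V) := AddCommGroup.zmodModule (n := q) (fun v => hV v.toMul)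
  let _ : Module (ZMod q) (Additive Z) := AddCommGroup.zmodModule (n := q) (fun z => hZ z.toMul)
  let c₁ : Additive V → (Additive V →ₗ[ZMod q] Additive Z) := fun u =>
    AddMonoidHom.toZModLinearMap q (AddMonoidHom.mk' (fun v => Additive.ofMul (c u.toMul v.toMul))
      (fun v v' => by
        show Additive.ofMul (c u.toMul (v.toMul * v'.toMul)) = _
        rw [hc2]; rfl))
  have hc₁ : ∀ u v, c₁ u v = Additive.ofMul (c u.toMul v.toMul) := fun u v => rfl
  let c₂ : Additive V →ₗ[ZMod q] Additive V →ₗ[ZMod q] Additive Z :=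
    AddMonoidHom.toZModLinearMap q (AddMonoidHom.mk' c₁ (fun u u' => by
      apply LinearMap.ext
      intro v
      rw [LinearMap.add_apply, hc₁, hc₁, hc₁]
      show Additive.ofMul (c (u.toMul * u'.toMul) v.toMul) = _
      rw [hc1]; rfl))
  have hc₂ : ∀ u v, c₂ u v = Additive.ofMul (c u.toMul v.toMul) := fun u v => rfl
  let L : (V →* V) → Module.End (ZMod q) (Additive V) := fun f =>
    AddMonoidHom.toZModLinearMap q (MonoidHom.toAdditive f)
  have hL : ∀ f v, L f v = Additive.ofMul (f v.toMul) := fun f v => rfl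
  let φ₂ : P →* Module.End (ZMod q) (Additive V) :=
    { toFun := fun y => L (φ y).toMonoidHom
      map_one' := by
        apply LinearMap.ext
        intro v
        rw [hL, map_one]
        rfl
      map_mul' := fun a b => by
        apply LinearMap.ext
        intro v
        rw [hL, map_mul, Module.End.mul_apply, hL, hL]
        rfl }
  have hφ₂ : ∀ y v, φ₂ y v = Additive.ofMul (φ y v.toMul) := fun y v => rfl
  obtain ⟨z, hz⟩ := hZ1
  obtain ⟨v, hv⟩ := hV1
  have key := lemLA (V := Additive V) (Z := Additive Z) (P := P) hq2 c₂ (fun v => ?_) (fun u hu z => ?_)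
    ⟨Additive.ofMul z, fun h => hz h⟩ ⟨Additive.ofMul v, fun h => hv h⟩ φ₂ ?_ ?_ ?_
  · obtain ⟨n, i, h1, h2, h3⟩ := key
    exact ⟨n, i, h1, h2, h3⟩
  · rw [hc₂, halt]; rfl
  · obtain ⟨w, hw⟩ := hsurj u.toMul (fun h => hu h) z.toMul
    exact ⟨Additive.ofMul w, by rw [hc₂]; exact congrArg Additive.ofMul hw⟩
  · intro a b hab
    apply hφ
    apply MulEquiv.ext
    intro w
    have h1 := congrArg (fun f : Module.End (ZMod q) (Additive V) => (f (Additive.ofMul w)).toMul) hab
    exact h1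
  · intro y u v
    rw [hφ₂, hφ₂, hc₂, hc₂]
    exact congrArg Additive.ofMul (hc y u.toMul v.toMul)
  · intro u v hu hv
    obtain ⟨h, h1, h2⟩ := htrans u.toMul v.toMul (fun h => hu h) (fun h => hv h)
    refine ⟨L h, ?_, fun y => ?_⟩
    · rw [hL, h1]; rfl
    · apply LinearMap.ext
      intro w
      rw [Module.End.mul_apply, Module.End.mul_apply, hφ₂, hL, hL, hφ₂]
      exact congrArg Additive.ofMul (h2 y w.toMul)

/-- The arithmetic. -/
theorem arith {q n i cP : ℕ} (hq : Odd q) (hq3 : 3 ≤ q) (hn : Even n) (h1 : ∀ k, 2 ^ k ∣ q ^ n - 1 → 2 ^ k ∣ cP)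
    (h2 : cP ∣ q ^ i + 1) : False := by
  have h0 : q ^ 2 - 1 ≠ 0 := by
    have : 3 ^ 2 ≤ q ^ 2 := Nat.pow_le_pow_left hq3 2
    omega
  obtain ⟨m, rfl⟩ := hq
  have hq2 : (2 * m + 1) ^ 2 - 1 = 4 * (m * (m + 1)) := by
    have : (2 * m + 1) ^ 2 = 4 * (m * (m + 1)) + 1 := by ring
    omega
  have h8 : 8 ∣ (2 * m + 1) ^ 2 - 1 := by
    rw [hq2]
    have : 2 ∣ m * (m + 1) := (Nat.even_mul_succ_self m).two_dvd
    obtain ⟨t, ht⟩ := this
    exact ⟨t, by rw [ht]; ring⟩
  set k := ((2 * m + 1) ^ 2 - 1).factorization 2 with hk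
  have hk1 : 2 ^ k ∣ (2 * m + 1) ^ 2 - 1 := Nat.ordProj_dvd _ _
  have hk2 : ¬ 2 ^ (k + 1) ∣ (2 * m + 1) ^ 2 - 1 := Nat.pow_succ_factorization_not_dvd h0 Nat.prime_two
  have hk3 : 3 ≤ k := by
    by_contra h
    apply hk2
    have : (2 : ℕ) ^ (k + 1) ∣ 2 ^ 3 := pow_dvd_pow 2 (by omega)
    exact this.trans h8
  have hdn : 2 ^ k ∣ (2 * m + 1) ^ n - 1 := by
    obtain ⟨j, rfl⟩ := hn
    have h3 : (2 * m + 1) ^ 2 - 1 ∣ ((2 * m + 1) ^ 2) ^ j - 1 ^ j := Nat.sub_dvd_pow_sub_pow _ _ _
    rw [one_pow, ← pow_mul] at h3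
    rw [← two_mul]
    exact hk1.trans h3
  have hdi : 2 ^ k ∣ (2 * m + 1) ^ i + 1 := (h1 k hdn).trans h2
  -- modulo `2 ^ k`
  have hmod : (2 * m + 1) ^ 2 ≡ 1 [MOD 2 ^ k] :=
    ((Nat.modEq_iff_dvd' (Nat.one_le_pow _ _ (by omega))).2 hk1).symm
  have h4 : (2 : ℕ) ^ 2 ∣ 2 ^ k := pow_dvd_pow 2 (by omega)
  rcases Nat.even_or_odd' i with ⟨j, rfl | rfl⟩
  · have h3 : (2 * m + 1) ^ (2 * j) + 1 ≡ 2 [MOD 2 ^ k] := by
      have := (hmod.pow j).add_right 1
      rw [one_pow, ← pow_mul] at this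
      exact this
    have h5 : 2 ^ k ∣ 2 := (h3.dvd_iff dvd_rfl).1 hdi
    have h6 := h4.trans h5
    revert h6
    decide
  · have h3 : (2 * m + 1) ^ (2 * j + 1) + 1 ≡ (2 * m + 1) + 1 [MOD 2 ^ k] := by
      have := ((hmod.pow j).mul_right (2 * m + 1)).add_right 1
      rw [one_pow, ← pow_mul, ← pow_succ, one_mul] at this
      exact this
    have h5 : 2 ^ k ∣ (2 * m + 1) + 1 := (h3.dvd_iff dvd_rfl).1 hdi
    apply hk2
    rw [pow_succ]
    have h6 : (2 * m + 1) ^ 2 - 1 = (2 * m + 1 + 1) * (2 * m) := by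
      have : (2 * m + 1) ^ 2 = (2 * m + 1 + 1) * (2 * m) + 1 := by ring
      omega
    rw [h6]
    exact mul_dvd_mul h5 (dvd_mul_right 2 m)

end Cfsg.Agent.H527.OC
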