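import Mathlib
import Cfsg.Agent.H527.OneClassC
import Cfsg.Agent.H527.OneClassG

/-!
# S4164: `p ≠ 2` if `L ≠ 1` (helper527)
-/

set_option autoImplicit false
set_option linter.unusedSectionVars false

namespace Cfsg.Agent.H527.OC

open Subgroup
open scoped Pointwise

variable {G : Type*} [Group G] [Finite G]

theorem Setup.false_of_two {q : ℕ} {P : Sylow 2 G} {N L : Subgroup G} (S : Setup 2 q (P : Subgroup G) N L)
    (hPC : (P : Subgroup G) ≤ centralizer ((P : Subgroup G) : Set G)) (hL : IsPGroup q L) (hL1 : L ≠ ⊥) : False := by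
  classical
  have := S.normN
  have := S.normL
  have : Fact (Nat.Prime 2) := ⟨Nat.prime_two⟩
  have : Fact q.Prime := ⟨S.primeq⟩
  set π := QuotientGroup.mk' L with hπ
  have hcL := S.le_cent_L hL
  have hLP := S.le_cent hL
  -- elements of `L` are central in `N`
  have hz : ∀ n ∈ N, ∀ l ∈ L, l * n = n * l := fun n hn l hl => mem_cent.1 (hcL hn) l hl
  have hq2 : q ≠ 2 := by
    rintro rfl
    obtain ⟨k, hk⟩ := IsPGroup.iff_card.1 (S.isPGroup_N hL)
    apply S.pN
    rw [hk]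
    refine dvd_pow_self 2 ?_
    rintro rfl
    rw [pow_zero] at hk
    have h1 := Subgroup.card_eq_one.1 hk
    exact absurd S.lt (by rw [h1]; exact not_lt_bot)
  have hVn : (N.map π).Normal := S.normN.map _ (QuotientGroup.mk'_surjective L)
  have hab : ∀ a ∈ N, ∀ b ∈ N, π a * π b = π b * π a := by
    intro a ha b hb
    have h1 := S.abel a ha b hb
    rw [← QuotientGroup.eq_one_iff, ← QuotientGroup.mk'_apply, map_mul, map_mul, map_mul, map_inv, map_inv,
      mul_inv_eq_one, mul_inv_eq_iff_eq_mul] at h1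
    exact h1
  let _ : CommGroup (N.map π) := { (inferInstance : Group (N.map π)) with
    mul_comm := by
      rintro ⟨_, a, ha, rfl⟩ ⟨_, b, hb, rfl⟩
      exact Subtype.ext (hab a ha b hb) }
  let _ : CommGroup L := { (inferInstance : Group L) with
    mul_comm := fun a b => Subtype.ext (hz b (S.lt.le b.2) a a.2) }
  let _ : CommGroup (P : Subgroup G) := { (inferInstance : Group (P : Subgroup G)) with
    mul_comm := fun a b => Subtype.ext (mem_cent.1 (hPC b.2) a a.2) }
  -- lifts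
  have hlift : ∀ u : N.map π, ∃ a ∈ N, π a = u := fun u => u.2
  choose lf hlfN hlf using hlift
  -- the commutator map
  let c : N.map π → N.map π → L := fun u v => ⟨lf u * lf v * (lf u)⁻¹ * (lf v)⁻¹, S.abel _ (hlfN u) _ (hlfN v)⟩
  have hckey : ∀ (a b : G) (_ : a ∈ N) (_ : b ∈ N) (u v : N.map π), π a = u → π b = v →
      ((c u v : L) : G) = a * b * a⁻¹ * b⁻¹ := by
    intro a b ha hb u v hu hv
    show lf u * lf v * (lf u)⁻¹ * (lf v)⁻¹ = _
    obtain ⟨l, hl, hl'⟩ : ∃ l ∈ L, a * l = lf u := by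
      refine ⟨a⁻¹ * lf u, ?_, by group⟩
      rw [← QuotientGroup.eq, ← QuotientGroup.mk'_apply, ← QuotientGroup.mk'_apply, hlf]
      exact hu
    obtain ⟨m, hm, hm'⟩ : ∃ l ∈ L, b * l = lf v := by
      refine ⟨b⁻¹ * lf v, ?_, by group⟩
      rw [← QuotientGroup.eq, ← QuotientGroup.mk'_apply, ← QuotientGroup.mk'_apply, hlf]
      exact hv
    rw [← hl', ← hm']
    have e1 := hz b hb l hl
    have e2 := hz m (S.lt.le hm) l hl
    have e3 := hz a ha m hm
    calc a * l * (b * m) * (a * l)⁻¹ * (b * m)⁻¹ = a * (l * b) * m * l⁻¹ * a⁻¹ * m⁻¹ * b⁻¹ := by group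
      _ = a * b * (l * m) * l⁻¹ * a⁻¹ * m⁻¹ * b⁻¹ := by rw [e1]; group
      _ = a * b * m * a⁻¹ * m⁻¹ * b⁻¹ := by rw [e2]; group
      _ = a * b * a⁻¹ * (a * m) * a⁻¹ * m⁻¹ * b⁻¹ := by group
      _ = a * b * a⁻¹ * b⁻¹ := by rw [← e3]; group
  -- homomorphisms `n ↦ [a, n]`
  let κ : ∀ a : G, a ∈ N → (N →* L) := fun a ha =>
    { toFun := fun n => ⟨a * n * a⁻¹ * (n : G)⁻¹, S.abel a ha n n.2⟩
      map_one' := Subtype.ext (by simp)
      map_mul' := fun m n => Subtype.ext (by
        show a * ((m : G) * n) * a⁻¹ * ((m : G) * n)⁻¹ = (a * m * a⁻¹ * (m : G)⁻¹) * (a * n * a⁻¹ * (n : G)⁻¹)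
        have e1 := hz m m.2 _ (S.abel a ha n n.2)
        calc a * ((m : G) * n) * a⁻¹ * ((m : G) * n)⁻¹ = a * m * a⁻¹ * (a * n * a⁻¹ * (n : G)⁻¹) * (m : G)⁻¹ := by group
          _ = a * m * a⁻¹ * (m : G)⁻¹ * ((m : G) * (a * n * a⁻¹ * (n : G)⁻¹)) * (m : G)⁻¹ := by group
          _ = (a * m * a⁻¹ * (m : G)⁻¹) * (a * n * a⁻¹ * (n : G)⁻¹) := by rw [← e1]; group) }
  have hκ : ∀ (a : G) (ha : a ∈ N) (n : N), ((κ a ha n : L) : G) = a * n * a⁻¹ * (n : G)⁻¹ := fun a ha n => rfl
  have hκsurj : ∀ (a : G) (ha : a ∈ N), a ∉ L → Function.Surjective (κ a ha) := by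
    intro a ha haL
    have h1 : Nat.card (κ a ha).ker = L.relIndex N := by
      rw [← S.card_centralizer ha haL]
      have hle : centralizer ({a} : Set G) ≤ N := by
        apply S.le_N_of_isPGroup
        obtain ⟨n, hn⟩ := S.exists_pow
        apply IsPGroup.of_card (n := n)
        rw [S.card_centralizer ha haL, hn]
      have h2 : (κ a ha).ker = (centralizer ({a} : Set G)).subgroupOf N := by
        ext n
        rw [MonoidHom.mem_ker, Subgroup.mem_subgroupOf, Subgroup.mem_centralizer_singleton_iff, ← Subtype.coe_inj, hκ a ha]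
        show a * n * a⁻¹ * (n : G)⁻¹ = 1 ↔ _
        rw [mul_inv_eq_one, mul_inv_eq_iff_eq_mul]
        exact eq_comm
      rw [h2]
      exact Nat.card_congr (Subgroup.subgroupOfEquivOfLe hle).toEquiv
    have h2 := Subgroup.card_mul_index (κ a ha).ker
    rw [Subgroup.index_ker, h1] at h2
    have h3 := Subgroup.relIndex_mul_relIndex (⊥ : Subgroup G) L N bot_le S.lt.le
    rw [Subgroup.relIndex_bot_left, Subgroup.relIndex_bot_left, mul_comm, ← h2] at h3
    have h4 := Nat.eq_of_mul_eq_mul_left (by have := S.two_le; omega) h3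
    rw [← MonoidHom.range_eq_top]
    exact Subgroup.eq_top_of_card_eq _ h4.symm
  obtain ⟨x, hx, hxL⟩ := S.exists_mem
  have hne : ∀ (a : G) (u : N.map π), π a = u → u ≠ 1 → a ∉ L := by
    intro a u hu hu1 haL
    apply hu1
    apply Subtype.ext
    rw [← hu, hπ, QuotientGroup.mk'_apply, (QuotientGroup.eq_one_iff a).2 haL]
    rfl
  -- the action of `G`
  let Φ : G →* MulAut (N.map π) := (MulAut.conjNormal (H := N.map π)).comp π
  have hΦ : ∀ g u, ((Φ g u : N.map π) : G ⧸ L) = π g * u * (π g)⁻¹ := fun g u => rfl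
  have hΦl : ∀ (g a : G) (u : N.map π), π a = u → π (g * a * g⁻¹) = (Φ g u : N.map π) := by
    intro g a u hu
    rw [hΦ, map_mul, map_mul, map_inv, hu]
  obtain ⟨n, i, h1, h2, h3⟩ := lemLA' (V := N.map π) (Z := L) (P := (P : Subgroup G)) hq2
    (by
      rintro ⟨_, a, ha, rfl⟩
      apply Subtype.ext
      show (π a) ^ q = 1
      rw [← map_pow, hπ, QuotientGroup.mk'_apply, QuotientGroup.eq_one_iff]
      exact S.exp a ha)
    (by
      intro z
      obtain ⟨m, hm⟩ := hκsurj x hx hxL z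
      have h1 : κ x hx (m ^ q) = 1 := by
        apply Subtype.ext
        rw [hκ x hx]
        have h2 := hz x hx _ (S.exp m m.2)
        show x * ((m ^ q : N) : G) * x⁻¹ * ((m ^ q : N) : G)⁻¹ = 1
        rw [Subgroup.coe_pow, ← h2]
        group
      rw [← hm, ← map_pow, h1])
    c
    (by
      intro u u' v
      apply Subtype.ext
      rw [hckey (lf u * lf u') (lf v) (mul_mem (hlfN u) (hlfN u')) (hlfN v) (u * u') v
        (by rw [map_mul, hlf, hlf]; rfl) (hlf v)]
      show _ = (lf u * lf v * (lf u)⁻¹ * (lf v)⁻¹) * (lf u' * lf v * (lf u')⁻¹ * (lf v)⁻¹)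
      have e1 := hz _ (mul_mem (hlfN v) (inv_mem (hlfN u))) _ (S.abel _ (hlfN u') _ (hlfN v))
      have e2 := hz _ (inv_mem (hlfN v)) _ (S.abel _ (hlfN u') _ (hlfN v))
      calc lf u * lf u' * lf v * (lf u * lf u')⁻¹ * (lf v)⁻¹ =
          lf u * ((lf u' * lf v * (lf u')⁻¹ * (lf v)⁻¹) * (lf v * (lf u)⁻¹)) * (lf v)⁻¹ := by group
        _ = lf u * (lf v * (lf u)⁻¹) * ((lf u' * lf v * (lf u')⁻¹ * (lf v)⁻¹) * (lf v)⁻¹) := by rw [e1]; group
        _ = _ := by rw [e2]; group)
    (by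
      intro u v v'
      apply Subtype.ext
      rw [hckey (lf u) (lf v * lf v') (hlfN u) (mul_mem (hlfN v) (hlfN v')) u (v * v') (hlf u)
        (by rw [map_mul, hlf, hlf]; rfl)]
      show _ = (lf u * lf v * (lf u)⁻¹ * (lf v)⁻¹) * (lf u * lf v' * (lf u)⁻¹ * (lf v')⁻¹)
      have e2 := hz _ (inv_mem (hlfN v)) _ (S.abel _ (hlfN u) _ (hlfN v'))
      calc lf u * (lf v * lf v') * (lf u)⁻¹ * (lf v * lf v')⁻¹ =
          lf u * lf v * (lf u)⁻¹ * ((lf u * lf v' * (lf u)⁻¹ * (lf v')⁻¹) * (lf v)⁻¹) := by group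
        _ = _ := by rw [e2]; group)
    (by
      intro v
      apply Subtype.ext
      rw [hckey (lf v) (lf v) (hlfN v) (hlfN v) v v (hlf v) (hlf v)]
      show _ = (1 : G)
      group)
    (by
      intro u hu z
      have h1 := hne _ u (hlf u) hu
      obtain ⟨m, hm⟩ := hκsurj _ (hlfN u) h1 z
      refine ⟨⟨π m, m, m.2, rfl⟩, ?_⟩
      apply Subtype.ext
      rw [hckey (lf u) m (hlfN u) m.2 u _ (hlf u) rfl, ← hκ _ (hlfN u), hm])
    (by
      by_contra hcon
      push Not at hcon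
      apply hL1
      rw [eq_bot_iff]
      intro l hl
      have := hcon ⟨l, hl⟩
      rw [Subgroup.mem_bot]
      exact congrArg Subtype.val this)
    (by
      refine ⟨⟨π x, x, hx, rfl⟩, fun h => hxL ?_⟩
      have h1 : π x = 1 := congrArg Subtype.val h
      exact (QuotientGroup.eq_one_iff x).1 h1)
    (Φ.comp (P : Subgroup G).subtype)
    (by
      rw [injective_iff_map_eq_one]
      intro y hy
      by_contra hy1
      -- `y ∈ C_G(P) ∖ N`
      have hyN : (y : G) ∉ N := by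
        intro hyN
        apply hy1
        apply Subtype.ext
        have h1 : orderOf (y : G) ∣ Nat.card N := by
          have := orderOf_dvd_natCard (⟨y, hyN⟩ : N)
          rwa [Subgroup.orderOf_mk] at this
        obtain ⟨k, hk⟩ := P.2 y
        have h2 : orderOf (y : G) ∣ 2 ^ k := by
          apply orderOf_dvd_of_pow_eq_one
          exact congrArg Subtype.val hk
        have h3 : (2 ^ k).Coprime (Nat.card N) := Nat.Coprime.pow_left k ((Nat.Prime.coprime_iff_not_dvd Nat.prime_two).2 S.pN)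
        have h4 : orderOf (y : G) ∣ 1 := by
          rw [← h3]
          exact Nat.dvd_gcd h2 h1
        exact orderOf_eq_one_iff.1 (Nat.dvd_one.1 h4)
      apply hxL
      apply S.mem_of_comm_mod (hPC y.2) hyN hx
      have h1 : Φ (y : G) ⟨π x, x, hx, rfl⟩ = ⟨π x, x, hx, rfl⟩ := by
        have h2 : Φ (y : G) = 1 := hy
        rw [h2]; rfl
      have h2 : π y * π x * (π y)⁻¹ = π x := congrArg Subtype.val h1
      rw [← QuotientGroup.eq_one_iff, ← QuotientGroup.mk'_apply]
      show π ((y : G)⁻¹ * x⁻¹ * y * x) = 1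
      rw [mul_inv_eq_iff_eq_mul] at h2
      rw [map_mul, map_mul, map_mul, map_inv, map_inv, mul_assoc, h2]
      group)
    (by
      intro y u v
      apply Subtype.ext
      show ((c (Φ y u) (Φ y v) : L) : G) = _
      rw [hckey (y * lf u * (y : G)⁻¹) (y * lf v * (y : G)⁻¹) (S.normN.conj_mem _ (hlfN u) _) (S.normN.conj_mem _ (hlfN v) _)
        _ _ (hΦl _ _ u (hlf u)) (hΦl _ _ v (hlf v))]
      show _ = lf u * lf v * (lf u)⁻¹ * (lf v)⁻¹
      have h1 := mem_cent.1 (hLP (S.abel _ (hlfN u) _ (hlfN v))) y y.2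
      calc _ = (y : G) * (lf u * lf v * (lf u)⁻¹ * (lf v)⁻¹) * (y : G)⁻¹ := by group
        _ = _ := by rw [h1]; group)
    (by
      intro u v hu hv
      obtain ⟨k, hk⟩ := S.conj _ (hlfN u) (hne _ u (hlf u) hu) _ (hlfN v) (hne _ v (hlf v) hv)
      obtain ⟨m, hm, d, hd, rfl⟩ := S.sup k
      refine ⟨(Φ d).toMonoidHom, ?_, ?_⟩
      · apply Subtype.ext
        show ((Φ d u : N.map π) : G ⧸ L) = v
        rw [← hlf v, ← hk, ← hΦl d _ u (hlf u)]
        have e1 := hab m hm (d * lf u * d⁻¹) (S.normN.conj_mem _ (hlfN u) _)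
        have e2 : m * d * lf u * (m * d)⁻¹ = m * (d * lf u * d⁻¹) * m⁻¹ := by group
        have e3 : π (m * (d * lf u * d⁻¹) * m⁻¹) = π (d * lf u * d⁻¹) := by
          rw [map_mul π _ m⁻¹, map_mul π m, e1, map_inv, mul_inv_cancel_right]
        rw [e2, e3]
      · intro y w
        show Φ d (Φ y w) = Φ y (Φ d w)
        rw [← MulAut.mul_apply, ← MulAut.mul_apply, ← map_mul, ← map_mul, mem_cent.1 hd y y.2])
  -- the arithmetic
  have hcard : Nat.card (N.map π) = L.relIndex N := by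
    have h4 := Subgroup.relIndex_ker N π
    rw [QuotientGroup.ker_mk'] at h4
    exact h4.symm
  have h4 := S.index_add_one
  have hqo : Odd q := S.primeq.odd_of_ne_two hq2
  have hq3 : 3 ≤ q := by
    have := S.primeq.two_le
    omega
  refine arith hqo hq3 h2 (cP := Nat.card (P : Subgroup G)) (fun k hk => ?_) h3
  rw [← h1, hcard, ← h4, Nat.add_sub_cancel] at hk
  exact P.pow_dvd_card_of_pow_dvd_card (hk.trans (Subgroup.index_dvd_card N))

end Cfsg.Agent.H527.OC
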