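import Mathlib
import Cfsg.Agent.H527.OneClassF
import Cfsg.Agent.H527.OneClassH

/-!
# S4164: assembly (helper527)

* `main` : the conclusion of S4164 from `NRow` for the simple groups and the solvability of cosets in one class.
-/

set_option autoImplicit false
set_option linter.unusedSectionVars false

namespace Cfsg.Agent.H527.OC

open Subgroup
open scoped Pointwise

universe u

variable {G : Type u} [Group G] [Finite G]

/-- Conjugates of `P`. -/
theorem Setup.conj_P {p q : ℕ} {P N L : Subgroup G} (S : Setup p q P N L) (k : G) :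
    Setup p q (P.map (MulAut.conj k).toMonoidHom) N L := by
  have hC : ∀ g : G, g ∈ centralizer ((P.map (MulAut.conj k).toMonoidHom : Subgroup G) : Set G) ↔
      k⁻¹ * g * k ∈ centralizer (P : Set G) := by
    intro g
    rw [mem_cent, mem_cent]
    constructor
    · intro h y hy
      have h1 : (k * y * k⁻¹) * g = g * (k * y * k⁻¹) := h (k * y * k⁻¹) ⟨y, hy, rfl⟩
      calc y * (k⁻¹ * g * k) = k⁻¹ * ((k * y * k⁻¹) * g) * k := by group
        _ = k⁻¹ * (g * (k * y * k⁻¹)) * k := by rw [h1]
        _ = k⁻¹ * g * k * y := by group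
    · rintro h _ ⟨y, hy, rfl⟩
      show (k * y * k⁻¹) * g = g * (k * y * k⁻¹)
      have h1 := h y hy
      calc (k * y * k⁻¹) * g = k * (y * (k⁻¹ * g * k)) * k⁻¹ := by group
        _ = k * (k⁻¹ * g * k * y) * k⁻¹ := by rw [h1]
        _ = g * (k * y * k⁻¹) := by group
  have hk : ∀ {K : Subgroup G}, K.Normal → ∀ g, k⁻¹ * g * k ∈ K ↔ g ∈ K := by
    intro K hK g
    constructor
    · intro h
      have := hK.conj_mem _ h k
      rwa [show k * (k⁻¹ * g * k) * k⁻¹ = g by group] at this
    · intro h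
      simpa using hK.conj_mem _ h k⁻¹
  exact
  { primeq := S.primeq
    normN := S.normN
    normL := S.normL
    lt := S.lt
    pP := S.pP.map _
    pN := S.pN
    sup := by
      intro g
      obtain ⟨n, hn, c, hc, h⟩ := S.sup (k⁻¹ * g * k)
      refine ⟨k * n * k⁻¹, S.normN.conj_mem _ hn k, k * c * k⁻¹, ?_, ?_⟩
      · rw [hC]
        rwa [show k⁻¹ * (k * c * k⁻¹) * k = c by group]
      · calc k * n * k⁻¹ * (k * c * k⁻¹) = k * (n * c) * k⁻¹ := by group
          _ = g := by rw [h]; group
    cov := by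
      intro g hg
      obtain ⟨n, hn, h⟩ := S.cov (k⁻¹ * g * k) (by rwa [hk S.normN, hk S.normL])
      refine ⟨k * n * k⁻¹, S.normN.conj_mem _ hn k, ?_⟩
      rw [hC]
      have : k⁻¹ * (k * n * k⁻¹ * g * (k * n * k⁻¹)⁻¹) * k = n * (k⁻¹ * g * k) * n⁻¹ := by group
      rwa [this]
    cent := by
      intro g hg hgC
      rw [hC] at hgC
      rw [← hk S.normL]
      exact S.cent _ ((hk S.normN g).2 hg) hgC
    conj := S.conj
    abel := S.abel
    exp := S.exp }

theorem main {p : ℕ} [Fact p.Prime] (h : ∃! C : ConjClasses G, p ∣ Nat.card C.carrier)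
    (hrow : ∀ (T : Type u) [Group T] [Finite T] [IsSimpleGroup T], (¬ ∀ a b : T, a * b = b * a) → NRow p T)
    (hsolv : ∀ (L : Subgroup G) [L.Normal] (x : G), (∀ l ∈ L, ∃ y : G, y * x * y⁻¹ = x * l) → Group.IsSolvable L) :
    (∃ H : Subgroup G, Cfsg.IsFrobeniusComplement H ∧ Nat.card H = 2 ∧ p ∣ Nat.card (Cfsg.frobeniusKernel H)) ∨
    (∃ H : Subgroup G, Cfsg.IsFrobeniusComplement H ∧ Nat.card (Cfsg.frobeniusKernel H) = Nat.card H + 1 ∧
      ∀ Q : Sylow p H, (Q : Subgroup H) ≠ ⊥ ∧ (Q : Subgroup H) ≤ Subgroup.center H) ∨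
    (p ≠ 2 ∧ (∃ q : ℕ, q.Prime ∧ IsPGroup q (Cfsg.fittingSubgroup G)) ∧
      ∀ P : Sylow p G,
        Cfsg.fittingSubgroup G ⊔ Subgroup.centralizer ((P : Subgroup G) : Set G) = ⊤ ∧
        Cfsg.fittingSubgroup G ⊓ Subgroup.centralizer ((P : Subgroup G) : Set G) =
          (Subgroup.center (Cfsg.fittingSubgroup G)).map (Cfsg.fittingSubgroup G).subtype ∧
        ∀ _hZ : ((Subgroup.center (Cfsg.fittingSubgroup G)).map (Cfsg.fittingSubgroup G).subtype).Normal,
          ∃ Hb : Subgroup (G ⧸ (Subgroup.center (Cfsg.fittingSubgroup G)).map (Cfsg.fittingSubgroup G).subtype),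
            Cfsg.IsFrobeniusComplement Hb ∧ Nat.card (Cfsg.frobeniusKernel Hb) = Nat.card Hb + 1) := by
  classical
  obtain ⟨x, hx, hP⟩ := exists_oneCl h
  obtain ⟨P⟩ : Nonempty (Sylow p G) := inferInstance
  by_cases hNC : normalizer ((P : Subgroup G) : Set G) ≤ centralizer ((P : Subgroup G) : Set G)
  swap
  · exact Or.inl (case_two P hx (hP P) hNC)
  right
  have hPC : (P : Subgroup G) ≤ centralizer ((P : Subgroup G) : Set G) := (Subgroup.le_normalizer).trans hNC
  obtain ⟨q, N, L, S, hsol⟩ := exists_setup P (hP P) hNC hrow (fun L _ hL => hsolv L x hL)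
  have hLq := S.isPGroup_L hsol
  by_cases hL : L = ⊥
  · left
    subst hL
    have hP1 : (P : Subgroup G) ≠ ⊥ := by
      intro h1
      apply (hP P).bad
      refine ⟨1, ?_⟩
      rw [h1, mem_cent]
      intro y hy
      rw [Subgroup.mem_bot.1 hy]
      group
    obtain ⟨h1, -, h3⟩ := S.frob hP1 hPC
    refine ⟨_, h1, h3, ?_⟩
    set H := centralizer ((P : Subgroup G) : Set G) with hH
    let P' : Sylow p H := P.subtype hPC
    have hP' : ∀ z : H, z ∈ P' ↔ (z : G) ∈ (P : Subgroup G) := fun z => Iff.rfl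
    have hcen : (P' : Subgroup H) ≤ Subgroup.center H := by
      intro z hz
      rw [Subgroup.mem_center_iff]
      intro w
      apply Subtype.ext
      exact (mem_cent.1 w.2 z hz).symm
    have hQ : ∀ Q : Sylow p H, (Q : Subgroup H) = P' := by
      intro Q
      obtain ⟨g, hg⟩ := MulAction.exists_smul_eq H P' Q
      rw [← hg, Sylow.coe_subgroup_smul]
      ext z
      rw [Subgroup.mem_pointwise_smul_iff_inv_smul_mem]
      have h4 : (MulAut.conj g)⁻¹ • z = g⁻¹ * z * g := by simp [MulAut.smul_def]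
      rw [h4]
      constructor
      · intro hz
        have h5 := Subgroup.mem_center_iff.1 (hcen hz) g
        have h6 : z = g⁻¹ * z * g := by
          have h7 : g * (g⁻¹ * z * g) = z * g := by group
          rw [h7] at h5
          exact mul_right_cancel h5
        rw [h6]
        exact hz
      · intro hz
        have h5 := Subgroup.mem_center_iff.1 (hcen hz) g
        have h6 : g⁻¹ * z * g = z := by rw [mul_assoc, ← h5, inv_mul_cancel_left]
        rw [h6]
        exact hz
    intro Q
    rw [hQ Q]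
    refine ⟨fun h4 => hP1 ?_, hcen⟩
    rw [eq_bot_iff]
    intro y hy
    have h5 : (⟨y, hPC hy⟩ : H) ∈ (P' : Subgroup H) := hy
    rw [h4, Subgroup.mem_bot] at h5
    exact congrArg Subtype.val h5
  · right
    refine ⟨?_, ⟨q, S.primeq, ?_⟩, ?_⟩
    · rintro rfl
      exact S.false_of_two hPC hLq hL
    · rw [S.fitting hLq]
      exact S.isPGroup_N hLq
    · intro P₂
      obtain ⟨k, hk⟩ := MulAction.exists_smul_eq G P P₂
      have hk' : (P : Subgroup G).map (MulAut.conj k).toMonoidHom = (P₂ : Subgroup G) := by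
        rw [← hk]; rfl
      have S₂ := S.conj_P k
      rw [hk'] at S₂
      have hP₂C : (P₂ : Subgroup G) ≤ centralizer ((P₂ : Subgroup G) : Set G) := by
        rw [← hk']
        rintro _ ⟨y, hy, rfl⟩
        rw [mem_cent]
        rintro _ ⟨z, hz, rfl⟩
        show (k * z * k⁻¹) * (k * y * k⁻¹) = (k * y * k⁻¹) * (k * z * k⁻¹)
        have := mem_cent.1 (hPC hy) z hz
        calc (k * z * k⁻¹) * (k * y * k⁻¹) = k * (z * y) * k⁻¹ := by group
          _ = k * (y * z) * k⁻¹ := by rw [this]
          _ = _ := by group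
      have hF := S.fitting hLq
      have hcen : (Subgroup.center (Cfsg.fittingSubgroup G)).map (Cfsg.fittingSubgroup G).subtype = L := by
        rw [hF]
        exact S.center hLq hL
      refine ⟨?_, ?_, ?_⟩
      · rw [hF, eq_top_iff]
        intro g _
        obtain ⟨n, hn, c, hc, rfl⟩ := S₂.sup g
        exact mul_mem (Subgroup.mem_sup_left hn) (Subgroup.mem_sup_right hc)
      · rw [hcen, hF]
        apply le_antisymm
        · intro g hg
          obtain ⟨h1, h2⟩ := Subgroup.mem_inf.1 hg
          exact S₂.cent g h1 h2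
        · exact le_inf S.lt.le (S₂.le_cent hLq)
      · have key : ∀ Z : Subgroup G, Z = L → ∀ _hZ : Z.Normal, ∃ Hb : Subgroup (G ⧸ Z),
            Cfsg.IsFrobeniusComplement Hb ∧ Nat.card (Cfsg.frobeniusKernel Hb) = Nat.card Hb + 1 := by
          rintro Z rfl hZ
          have Sq := S₂.quot (A := Z) le_rfl
          have hZbot : Z.map (QuotientGroup.mk' Z) = ⊥ := QuotientGroup.map_mk'_self Z
          rw [hZbot] at Sq
          have hc : (P₂ : Subgroup G).map (QuotientGroup.mk' Z) ≤
              centralizer (((P₂ : Subgroup G).map (QuotientGroup.mk' Z) : Subgroup (G ⧸ Z)) : Set (G ⧸ Z)) := by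
            rintro _ ⟨y, hy, rfl⟩
            rw [mem_cent]
            rintro _ ⟨z, hz, rfl⟩
            rw [← map_mul, ← map_mul, mem_cent.1 (hP₂C hy) z hz]
          have h1 : (P₂ : Subgroup G).map (QuotientGroup.mk' Z) ≠ ⊥ := by
            intro h1
            obtain ⟨v, hv, hv1⟩ := Sq.exists_mem
            apply hv1
            apply Sq.cent v hv
            rw [h1, mem_cent]
            intro y hy
            rw [Subgroup.mem_bot.1 hy, one_mul, mul_one]
          obtain ⟨h2, -, h3⟩ := Sq.frob h1 hc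
          exact ⟨_, h2, h3⟩
        exact key _ hcen

end Cfsg.Agent.H527.OC
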